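import Cfsg.Agent.BrauerPairs.CyclicDefect.LinAlg
import Cfsg.Agent.BrauerPairs.Nil.SectionIdem
import Mathlib.Algebra.CharP.Lemmas
import Mathlib.Algebra.MonoidAlgebra.Basic

/-!
# Modules of a block with cyclic defect group

The block idempotent is a trace from the defect group; hence the modules induced from modules of
the corner algebra with local endomorphism rings have bounded dimension when the defect group is
cyclic.
-/

set_option maxHeartbeats 400000
set_option linter.unusedSectionVars false
set_option linter.style.haveILetI false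

namespace Cfsg.Agent.BrauerPairs.CyclicDefect

open MonoidAlgebra Cfsg
open scoped Classical

universe u

variable {G : Type u} [Group G] [Fintype G]

/-- A class sum whose class meets the subgroup in the right way is a trace from it. -/
theorem classSum_eq_trace {k : Type*} [Field k] {p : ℕ} [CharP k p] {P : Subgroup G}
    {c : G} (hc : ¬ p ∣ P.relIndex (Subgroup.centralizer ({c} : Set G))) :
    ∃ a : MonoidAlgebra k G, Fixed P a ∧
      ∑ y : G ⧸ P, cj y.out a = Block.classSum k c := by
  set C := Subgroup.centralizer ({c} : Set G) with hC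
  let O : Set G := {h | ∃ π ∈ P, π * c * π⁻¹ = h}
  set N := P.relIndex C with hN
  have hNk : (N : k) ≠ 0 := fun h0 => hc ((CharP.cast_eq_zero_iff k p N).1 h0)
  refine ⟨Block.ofFn fun h => if h ∈ O then (N : k)⁻¹ else 0, fun u hu g => ?_, ?_⟩
  · rw [Block.coeff_ofFn, Block.coeff_ofFn]
    refine if_congr ⟨?_, ?_⟩ rfl rfl
    · rintro ⟨π, hπ, he⟩
      exact ⟨u⁻¹ * π, P.mul_mem (P.inv_mem hu) hπ, by
        calc u⁻¹ * π * c * (u⁻¹ * π)⁻¹ = u⁻¹ * (π * c * π⁻¹) * u := by group
          _ = g := by rw [he]; group⟩
    · rintro ⟨π, hπ, he⟩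
      exact ⟨u * π, P.mul_mem hu hπ, by rw [← he]; group⟩
  refine Block.groupAlgebra_ext fun h => ?_
  rw [coeff_sum, Finsupp.finsetSum_apply, Block.coeff_classSum]
  simp only [coeff_cj, Block.coeff_ofFn]
  rw [← Finset.sum_filter, Finset.sum_const, nsmul_eq_mul]
  by_cases hh : IsConj c h
  · rw [if_pos hh]
    obtain ⟨z, hz⟩ := isConj_iff.1 hh
    suffices hcard : (Finset.univ.filter fun y : G ⧸ P => y.out⁻¹ * h * y.out ∈ O).card = N by
      rw [hcard, mul_inv_cancel₀ hNk]
    have hout : ∀ x : G, ∃ π ∈ P, ((x : G ⧸ P)).out = x * π := fun x => by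
      obtain ⟨π, hπ⟩ := QuotientGroup.mk_out_eq_mul P x
      exact ⟨(π : G), π.2, hπ⟩
    let φ : C ⧸ P.subgroupOf C → G ⧸ P :=
      Quotient.map' (fun s : C => z * (s : G)) fun s s' hs => by
        rw [QuotientGroup.leftRel_apply] at hs ⊢
        have : (z * (s : G))⁻¹ * (z * (s' : G)) = ((s⁻¹ * s' : C) : G) := by simp [mul_assoc]
        rw [this]
        exact hs
    have hφ : ∀ s : C, φ s = ((z * (s : G) : G) : G ⧸ P) := fun s => rfl
    have hinj : Function.Injective φ := by
      intro q q'
      obtain ⟨s, rfl⟩ := QuotientGroup.mk_surjective q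
      obtain ⟨s', rfl⟩ := QuotientGroup.mk_surjective q'
      intro he
      rw [hφ, hφ, QuotientGroup.eq] at he
      rw [QuotientGroup.eq, Subgroup.mem_subgroupOf]
      simpa [mul_assoc] using he
    rw [hN, Subgroup.relIndex, Subgroup.index_eq_card, Nat.card_eq_fintype_card,
      ← Finset.card_univ, ← Finset.card_image_of_injective _ hinj]
    congr 1
    ext y
    simp only [Finset.mem_filter, Finset.mem_univ, true_and, Finset.mem_image]
    constructor
    · rintro ⟨π, hπ, he⟩
      have hs : z⁻¹ * y.out * π ∈ C := by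
        rw [hC, Subgroup.mem_centralizer_singleton_iff]
        calc z⁻¹ * y.out * π * c = z⁻¹ * y.out * (π * c * π⁻¹) * π := by group
          _ = z⁻¹ * y.out * (y.out⁻¹ * h * y.out) * π := by rw [he]
          _ = z⁻¹ * (z * c * z⁻¹) * y.out * π := by rw [hz]; group
          _ = c * (z⁻¹ * y.out * π) := by group
      refine ⟨((⟨_, hs⟩ : C) : C ⧸ P.subgroupOf C), ?_⟩
      rw [hφ]
      conv_rhs => rw [← QuotientGroup.out_eq' y]
      rw [QuotientGroup.eq]
      simpa [mul_assoc] using P.inv_mem hπ
    · rintro ⟨q, rfl⟩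
      obtain ⟨s, rfl⟩ := QuotientGroup.mk_surjective q
      rw [hφ]
      obtain ⟨π, hπ, he⟩ := hout (z * (s : G))
      refine ⟨π⁻¹, P.inv_mem hπ, ?_⟩
      have hs : (s : G) * c = c * (s : G) := Subgroup.mem_centralizer_singleton_iff.1 s.2
      have hs' : (s : G)⁻¹ * c * (s : G) = c := by rw [mul_assoc, ← hs, inv_mul_cancel_left]
      rw [he, inv_inv]
      calc π⁻¹ * c * π = π⁻¹ * ((s : G)⁻¹ * c * (s : G)) * π := by rw [hs']
        _ = _ := by rw [← hz]; group
  · rw [if_neg hh, Finset.filter_false_of_mem, Finset.card_empty, Nat.cast_zero, zero_mul]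
    rintro y - ⟨π, -, he⟩
    exact hh (isConj_iff.2 ⟨y.out * π, by
      calc y.out * π * c * (y.out * π)⁻¹ = y.out * (π * c * π⁻¹) * y.out⁻¹ := by group
        _ = h := by rw [he]; group⟩)

theorem fixed_zero' {k : Type*} [CommRing k] {P : Subgroup G} :
    Fixed P (0 : MonoidAlgebra k G) := fun _ _ _ => rfl

/-- The idempotent of a block is a trace from its defect group. -/
theorem idemF_eq_trace {p : ℕ} [Fact p.Prime] {M : Ideal AlgInt} [M.IsPrime]
    [CharP (Block.ResF M) p] (hM : IsPModular p M) {B : Set (IrrCharacter G)}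
    (hB : IsPBlock M B) {P : Subgroup G} (hP : IsDefectGroup p M B P) :
    ∃ a : MonoidAlgebra (Block.ResF M) G, Fixed P a ∧
      ∑ y : G ⧸ P, cj y.out a = Block.idemF M B := by
  set b := Block.idemF M B
  have hterm : ∀ cl : ConjClasses G, ∃ a : MonoidAlgebra (Block.ResF M) G, Fixed P a ∧
      ∑ y : G ⧸ P, cj y.out a = b.coeff cl.out • Block.classSum (Block.ResF M) cl.out := by
    intro cl
    by_cases h0 : b.coeff cl.out = 0
    · exact ⟨0, fixed_zero', by rw [h0, zero_smul]; simp⟩
    obtain ⟨D, hD⟩ := Block.exists_isClassDefectGroup (p := p) cl.out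
    obtain ⟨x, hx⟩ := Block.subConj_of_blockCoeff_unit hM hB hP hD
      ((Block.coeff_idemF_ne_zero_iff hB _).1 h0)
    have hD' := hD.conj x
    have hndvd : ¬ p ∣ P.relIndex (Subgroup.centralizer ({x * cl.out * x⁻¹} : Set G)) := by
      intro hd
      have h1 : P.relIndex (Subgroup.centralizer ({x * cl.out * x⁻¹} : Set G)) ∣
          (D.map (MulAut.conj x).toMonoidHom).relIndex
            (Subgroup.centralizer ({x * cl.out * x⁻¹} : Set G)) :=
        Subgroup.relIndex_dvd_of_le_left _ hx
      have h2 := hd.trans h1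
      have h3 : (D.map (MulAut.conj x).toMonoidHom).relIndex
            (Subgroup.centralizer ({x * cl.out * x⁻¹} : Set G)) *
          Nat.card ↥(D.map (MulAut.conj x).toMonoidHom) =
          Nat.card (Subgroup.centralizer ({x * cl.out * x⁻¹} : Set G)) := by
        have h4 := Subgroup.relIndex_mul_relIndex (⊥ : Subgroup G) _ _ bot_le hD'.le_centralizer
        rw [Subgroup.relIndex_bot_left, Subgroup.relIndex_bot_left] at h4
        rw [mul_comm]
        exact h4
      rw [hD'.card_eq] at h3
      refine Nat.pow_succ_factorization_not_dvd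
        (n := Nat.card (Subgroup.centralizer ({x * cl.out * x⁻¹} : Set G))) Nat.card_pos.ne' (Fact.out : p.Prime) ?_
      rw [pow_succ']
      conv_rhs => rw [← h3]
      exact Nat.mul_dvd_mul_right h2 _
    obtain ⟨a, ha, hsum⟩ := classSum_eq_trace (k := Block.ResF M) hndvd
    refine ⟨b.coeff cl.out • a, fun u hu g => by simp [coeff_smul, ha u hu g], ?_⟩
    have hcls : Block.classSum (Block.ResF M) (x * cl.out * x⁻¹) =
        Block.classSum (Block.ResF M) cl.out := by
      refine Block.groupAlgebra_ext fun g => ?_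
      rw [Block.coeff_classSum, Block.coeff_classSum]
      have h : IsConj cl.out (x * cl.out * x⁻¹) := isConj_iff.2 ⟨x, rfl⟩
      exact if_congr ⟨fun h' => h.trans h', fun h' => h.symm.trans h'⟩ rfl rfl
    rw [← hcls, ← hsum, Finset.smul_sum]
    exact Finset.sum_congr rfl fun y _ => map_smul _ _ _
  choose a ha hsum using hterm
  haveI := Fintype.ofFinite (ConjClasses G)
  refine ⟨∑ cl, a cl, Fixed.sum _ fun cl _ => ha cl, ?_⟩
  simp only [map_sum]
  rw [Finset.sum_comm]
  simp only [hsum]
  exact (Block.isCentralElt_eq_sum_classSum (Block.idemF_isCentralElt B)).symm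

section Induce

variable {k : Type*} [Field k] {m : Type*} [AddCommGroup m] [Module k m] [FiniteDimensional k m]

/-- Right translation on functions. -/
noncomputable def shift (k : Type*) [Field k] (m : Type*) [AddCommGroup m] [Module k m] :
    G →* Module.End k (G → m) where
  toFun x :=
    { toFun := fun φ h => φ (h * x)
      map_add' := fun _ _ => rfl
      map_smul' := fun _ _ => rfl }
  map_one' := LinearMap.ext fun φ => funext fun h => congrArg φ (mul_one h)
  map_mul' x y := LinearMap.ext fun φ => funext fun h => congrArg φ (mul_assoc h x y).symm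

theorem shift_apply (x : G) (φ : G → m) (h : G) : shift k m x φ h = φ (h * x) := rfl

/-- The group algebra acting on functions. -/
noncomputable def act (k : Type*) [Field k] (m : Type*) [AddCommGroup m] [Module k m] :
    MonoidAlgebra k G →ₐ[k] Module.End k (G → m) :=
  MonoidAlgebra.lift k (Module.End k (G → m)) G (shift k m)

theorem act_single (x : G) (r : k) : act k m (single x r) = r • shift k m x := by
  rw [act, MonoidAlgebra.lift_single]

/-- The element of the induced module given by `s ⊗ v`. -/
noncomputable def gen (ρ : MonoidAlgebra k G →ₗ[k] Module.End k m) (s : MonoidAlgebra k G)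
    (v : m) : G → m := fun h => ρ (single h 1 * s) v

theorem act_gen (ρ : MonoidAlgebra k G →ₗ[k] Module.End k m) (z s : MonoidAlgebra k G) (v : m) :
    act k m z (gen ρ s v) = gen ρ (z * s) v := by
  induction z using MonoidAlgebra.induction_linear with
  | zero => funext h; simp [gen]
  | add a b ha hb =>
    rw [map_add, LinearMap.add_apply, ha, hb]
    funext h
    simp [gen, add_mul, mul_add]
  | single x r =>
    funext h
    rw [act_single]
    show r • ρ (single (h * x) 1 * s) v = ρ (single h 1 * (single x r * s)) v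
    rw [← mul_assoc, single_mul_single, one_mul,
      show (single (h * x) r : MonoidAlgebra k G) = r • single (h * x) 1 by
        rw [smul_single, smul_eq_mul, mul_one], smul_mul_assoc, map_smul, LinearMap.smul_apply]

variable {p : ℕ} [Fact p.Prime] [CharP k p] {P : Subgroup G} {e b a : MonoidAlgebra k G}
  {ρ : MonoidAlgebra k G →ₗ[k] Module.End k m} {c : Module.End k m →ₗ[k] k}

theorem cj_eq_mul (x : G) (a : MonoidAlgebra k G) :
    cj x a = single x 1 * a * single x⁻¹ 1 := by
  induction a using MonoidAlgebra.induction_linear with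
  | zero => simp
  | add a b ha hb => rw [map_add, ha, hb, mul_add, add_mul]
  | single g r =>
    refine Block.groupAlgebra_ext fun y => ?_
    rw [coeff_cj, single_mul_single, single_mul_single, coeff_single, coeff_single, one_mul,
      mul_one, Finsupp.single_apply, Finsupp.single_apply]
    exact if_congr ⟨fun h => by rw [h]; group, fun h => by rw [← h]; group⟩ rfl rfl

/-- A module of the corner with local endomorphisms is no larger than the group when the defect
group is cyclic. -/
theorem finrank_le_card (hcyc : IsCyclic P) (hP : IsPGroup p P) (haP : Fixed P a)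
    (htr : ∑ y : G ⧸ P, cj y.out a = b) (hbc : ∀ z, z * b = b * z)
    (hρ : ∀ r s, ρ (r * e * s) = ρ r * ρ s) (hρ1 : ρ 1 = 1) (hρb : ∀ r, ρ (b * r) = ρ r)
    (hρl : ∀ r, ρ (e * r) = ρ r) (hρr : ∀ r, ρ (r * e) = ρ r) (hc : c 1 = 1)
    (hloc : ∀ f : Module.End k m, (∀ r, f * ρ r = ρ r * f) →
      IsNilpotent (f - algebraMap k _ (c f))) :
    Module.finrank k m ≤ Nat.card G := by
  obtain ⟨u, hu⟩ := hcyc.exists_generator
  obtain ⟨n, hn⟩ := hP.exists_card_eq
  set U := shift k m (u : G) with hU
  have hUq : U ^ (p ^ n) = 1 := by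
    rw [hU, ← map_pow, ← hn, ← SubgroupClass.coe_pow, pow_card_eq_one', OneMemClass.coe_one,
      map_one]
  have hNq : (U - 1) ^ (p ^ n) = 0 := by
    have h := congrArg (Polynomial.aeval U)
      (sub_pow_char_pow (p := p) (n := n) (Polynomial.X : Polynomial k) 1)
    simp only [map_pow, map_sub, Polynomial.aeval_X, map_one, one_pow] at h
    rw [h, hUq, sub_self]
  let V : Submodule k (G → m) :=
    Submodule.span k (Set.range fun sv : MonoidAlgebra k G × m => gen ρ sv.1 sv.2)
  have hgenV : ∀ s v, gen ρ s v ∈ V := fun s v => Submodule.subset_span ⟨(s, v), rfl⟩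
  have hactV : ∀ z, ∀ φ ∈ V, act k m z φ ∈ V := by
    intro z φ hφ
    induction hφ using Submodule.span_induction with
    | mem φ hφ => obtain ⟨⟨s, v⟩, rfl⟩ := hφ; rw [act_gen]; exact hgenV _ _
    | zero => rw [map_zero]; exact V.zero_mem
    | add φ ψ _ _ h1 h2 => rw [map_add]; exact V.add_mem h1 h2
    | smul r φ _ h1 => rw [map_smul]; exact V.smul_mem r h1
  have hshiftV : ∀ x : G, ∀ φ ∈ V, shift k m x φ ∈ V := fun x φ hφ => by
    have := hactV (single x 1) φ hφ
    rwa [act_single, one_smul] at this
  obtain ⟨N, π, hπ, hπr, hπs⟩ := exists_pieces (U - 1) (q := p ^ n) hNq V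
    (fun φ hφ => V.sub_mem (hshiftV _ φ hφ) hφ)
  -- the pieces commute with the defect group
  have hπP : ∀ i, ∀ x ∈ P, ∀ φ ∈ V, shift k m x (π i φ) = π i (shift k m x φ) := by
    intro i x hx
    obtain ⟨j, hj⟩ := mem_powers_iff_mem_zpowers.2 (hu ⟨x, hx⟩)
    have hxj : (u : G) ^ j = x := by simpa using congrArg Subtype.val hj
    rw [← hxj, map_pow, ← hU]
    clear hj hxj
    induction j with
    | zero => intro φ _; simp
    | succ j IH =>
      intro φ hφ
      rw [pow_succ, Module.End.mul_apply, Module.End.mul_apply, ← IH _ (hshiftV _ φ hφ)]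
      congr 1
      have h := (hπ i φ hφ).2
      rw [LinearMap.sub_apply, LinearMap.sub_apply, Module.End.one_apply, Module.End.one_apply,
        map_sub] at h
      exact sub_left_inj.1 h
  -- the traces of the pieces
  let F : Fin N → Module.End k (G → m) := fun i =>
    ∑ y : G ⧸ P, shift k m y.out * act k m a * π i * shift k m y.out⁻¹
  have hFV : ∀ i, ∀ φ ∈ V, F i φ ∈ V := by
    intro i φ hφ
    simp only [F, LinearMap.sum_apply, Module.End.mul_apply]
    exact V.sum_mem fun y _ => hshiftV _ _ (hactV _ _ (hπ i _ (hshiftV _ _ hφ)).1)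
  have hcomm_a : ∀ x ∈ P, ∀ φ : G → m,
      shift k m x (act k m a φ) = act k m a (shift k m x φ) := by
    intro x hx φ
    have h := (Nil.commute_single_of_fixed (u := x)
      (fun g hg => haP g (Subgroup.zpowers_le.2 hx hg)) (1 : k)).eq
    have h2 := congrArg (fun z => act k m z φ) h
    simpa [map_mul, act_single] using h2
  have hFG : ∀ i x, ∀ φ ∈ V, F i (shift k m x φ) = shift k m x (F i φ) := by
    intro i x φ hφ
    simp only [F, LinearMap.sum_apply, Module.End.mul_apply, map_sum]
    refine (Fintype.sum_equiv (MulAction.toPerm x) _ _ fun y => ?_).symm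
    rw [MulAction.toPerm_apply]
    obtain ⟨w, hw⟩ : ∃ w : P, (x • y).out = x * y.out * (w : G) := by
      have h1 : x • y = ((x * y.out : G) : G ⧸ P) := by
        conv_lhs => rw [← QuotientGroup.out_eq' y]
        rfl
      rw [h1]
      exact QuotientGroup.mk_out_eq_mul P _
    have hxy : shift k m (x * y.out) = shift k m x * shift k m y.out := map_mul _ _ _
    rw [hw, mul_inv_rev, map_mul (shift k m) _ (w : G), Module.End.mul_apply,
      ← Module.End.mul_apply (shift k m ((w : G)⁻¹ * (x * y.out)⁻¹)), ← map_mul,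
      show (w : G)⁻¹ * (x * y.out)⁻¹ * x = (w : G)⁻¹ * y.out⁻¹ by group,
      map_mul (shift k m) (w : G)⁻¹ y.out⁻¹,
      Module.End.mul_apply, ← hπP i _ (P.inv_mem w.2) _ (hshiftV _ φ hφ),
      hcomm_a _ w.2, ← Module.End.mul_apply (shift k m (w : G)), ← map_mul, mul_inv_cancel,
      map_one, Module.End.one_apply, hxy, Module.End.mul_apply]
  have hFsum : ∀ φ ∈ V, ∑ i, F i φ = φ := by
    intro φ hφ
    have h1 : ∑ i, F i φ = act k m b φ := by
      rw [← htr, map_sum, LinearMap.sum_apply]
      simp only [F, LinearMap.sum_apply]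
      rw [Finset.sum_comm]
      refine Finset.sum_congr rfl fun y _ => ?_
      rw [cj_eq_mul, map_mul, map_mul, act_single, act_single, one_smul, one_smul]
      simp only [Module.End.mul_apply]
      rw [← map_sum, ← map_sum, hπs _ (hshiftV _ φ hφ)]
    rw [h1]
    clear h1
    induction hφ using Submodule.span_induction with
    | mem φ hφ =>
      obtain ⟨⟨s, v⟩, rfl⟩ := hφ
      rw [act_gen]
      funext h
      show ρ (single h 1 * (b * s)) v = ρ (single h 1 * s) v
      rw [← mul_assoc, hbc, mul_assoc, hρb]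
    | zero => rw [map_zero]
    | add φ ψ _ _ h1 h2 => rw [map_add, h1, h2]
    | smul r φ _ h1 => rw [map_smul, h1]
  -- into and out of the induced module
  let ι : m →ₗ[k] (G → m) := LinearMap.pi fun h => ρ (single h 1 * e)
  have hι : ∀ v, ι v = gen ρ e v := fun v => rfl
  let pr : (G → m) →ₗ[k] m := ∑ h : G, e.coeff h • LinearMap.proj h
  have hpr : ∀ s v, pr (gen ρ s v) = ρ s v := by
    intro s v
    have hsum : e = ∑ h : G, e.coeff h • single h (1 : k) := by
      refine Block.groupAlgebra_ext fun g => ?_
      simp [coeff_sum, Finsupp.single_apply]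
    have h1 : pr (gen ρ s v) = ρ (e * s) v := by
      conv_rhs => rw [hsum, Finset.sum_mul, map_sum, LinearMap.sum_apply]
      simp only [pr, LinearMap.sum_apply, LinearMap.smul_apply, LinearMap.proj_apply, smul_mul_assoc,
        map_smul]
      rfl
    rw [h1, hρl]
  let f : Fin N → Module.End k m := fun i => pr ∘ₗ F i ∘ₗ ι
  have hfρ : ∀ i r, f i * ρ r = ρ r * f i := by
    intro i r
    refine LinearMap.ext fun v => ?_
    show pr (F i (ι (ρ r v))) = ρ r (pr (F i (ι v)))
    have h1 : ι (ρ r v) = act k m (e * r * e) (ι v) := by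
      rw [hι, hι, act_gen]
      funext h
      show ρ (single h 1 * e) (ρ r v) = ρ (single h 1 * (e * r * e * e)) v
      simp only [← mul_assoc, hρr, hρ]
      rfl
    have h2 : ∀ z : MonoidAlgebra k G, ∀ φ ∈ V, F i (act k m z φ) = act k m z (F i φ) := by
      intro z φ hφ
      induction z using MonoidAlgebra.induction_linear with
      | zero => simp
      | add a b ha hb => simp only [map_add, LinearMap.add_apply, ha, hb]
      | single x r =>
        rw [act_single, LinearMap.smul_apply, LinearMap.smul_apply, map_smul, hFG i x φ hφ]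
    have h3 : ∀ φ ∈ V, pr (act k m (e * r * e) φ) = ρ r (pr φ) := by
      intro φ hφ
      induction hφ using Submodule.span_induction with
      | mem φ hφ =>
        obtain ⟨⟨s, v⟩, rfl⟩ := hφ
        rw [act_gen, hpr, hpr, mul_assoc e r e, mul_assoc e, hρl, hρ]
        rfl
      | zero => simp only [map_zero]
      | add φ ψ _ _ h1 h2 => rw [map_add (act k m (e * r * e)), map_add pr, h1, h2, map_add pr,
          map_add (ρ r)]
      | smul t φ _ h1 => rw [map_smul (act k m (e * r * e)), map_smul pr, h1, map_smul pr,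
          map_smul (ρ r)]
    rw [h1, h2 _ _ (hι v ▸ hgenV _ _), h3 _ (hFV i _ (hι v ▸ hgenV _ _))]
  have hsum1 : ∑ i, f i = 1 := by
    refine LinearMap.ext fun v => ?_
    simp only [f, LinearMap.sum_apply, LinearMap.comp_apply]
    rw [← map_sum, hFsum _ (hι v ▸ hgenV _ _), hι, hpr, ← mul_one e, hρl, hρ1]
  obtain ⟨i, hi⟩ : ∃ i, c (f i) ≠ 0 := by
    by_contra hcon
    push Not at hcon
    have := congrArg c hsum1
    rw [map_sum, hc, Finset.sum_eq_zero fun i _ => hcon i] at this
    exact zero_ne_one this
  have hunit : IsUnit (f i) := by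
    have hu : IsUnit (algebraMap k (Module.End k m) (c (f i))) := (isUnit_iff_ne_zero.2 hi).map _
    have := (hloc (f i) (hfρ i)).isUnit_add_left_of_commute hu
      (Algebra.commute_algebraMap_right (c (f i)) (f i - algebraMap k _ (c (f i))))
    simpa using this
  have hinj : Function.Injective (f i) := by
    obtain ⟨g, hg⟩ := hunit.exists_left_inv
    exact Function.LeftInverse.injective fun v => LinearMap.congr_fun hg v
  have hle : Module.finrank k m ≤ Module.finrank k (V.map (F i)) := by
    let ψ : m →ₗ[k] V.map (F i) := LinearMap.codRestrict _ (F i ∘ₗ ι)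
      fun v => ⟨ι v, hι v ▸ hgenV _ _, rfl⟩
    refine LinearMap.finrank_le_finrank_of_injective (f := ψ) fun v w hvw => hinj ?_
    exact congrArg pr (congrArg Subtype.val hvw)
  refine hle.trans ?_
  have hsub : V.map (F i) ≤
      ⨆ y : G ⧸ P, (V.map (π i)).map (shift k m y.out * act k m a) := by
    rintro _ ⟨φ, hφ, rfl⟩
    simp only [F, LinearMap.sum_apply]
    exact Submodule.sum_mem _ fun y _ => Submodule.mem_iSup_of_mem y
      ⟨π i (shift k m y.out⁻¹ φ), ⟨_, hshiftV _ φ hφ, rfl⟩, rfl⟩
  refine (Submodule.finrank_mono hsub).trans ?_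
  have hsup : ∀ (s : Finset (G ⧸ P)) (g : G ⧸ P → Submodule k (G → m)),
      Module.finrank k ↥(s.sup g) ≤ ∑ y ∈ s, Module.finrank k (g y) := by
    intro s g
    induction s using Finset.induction with
    | empty => simp
    | insert y s hy IH =>
      rw [Finset.sup_insert, Finset.sum_insert hy]
      exact (Submodule.finrank_add_le_finrank_add_finrank _ _).trans (by omega)
  rw [← Finset.sup_univ_eq_iSup]
  refine (hsup _ _).trans ?_
  calc ∑ y : G ⧸ P, Module.finrank k ((V.map (π i)).map (shift k m y.out * act k m a))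
      ≤ ∑ _y : G ⧸ P, p ^ n := Finset.sum_le_sum fun y _ =>
        (Submodule.finrank_map_le _ _).trans (hπr i)
    _ = Nat.card G := by
        rw [Finset.sum_const, Finset.card_univ, smul_eq_mul, ← Nat.card_eq_fintype_card, ← hn,
          ← Subgroup.card_eq_card_quotient_mul_card_subgroup]

end Induce

end Cfsg.Agent.BrauerPairs.CyclicDefect
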