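import Cfsg.Agent.BrauerPairs.Nil.PolyIdem
import Mathlib.LinearAlgebra.Dimension.Finrank
import Mathlib.LinearAlgebra.FreeModule.Finite.Basic
import Mathlib.RingTheory.Nilpotent.Basic
import Mathlib.Algebra.Algebra.Operations

/-!
# Linear algebra for blocks with cyclic defect

Pieces of a nilpotent operator, local algebras with two tangent functionals, and their modules
with arbitrarily large dimension whose endomorphisms are scalar plus nilpotent.
-/

set_option maxHeartbeats 400000
set_option linter.unusedSectionVars false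

namespace Cfsg.Agent.BrauerPairs.CyclicDefect

open Polynomial
open scoped Classical

variable {k : Type*} [Field k]

theorem pow_mul_apply_eq_zero {V : Type*} [AddCommGroup V] [Module k V] {N : Module.End k V}
    {h i : ℕ} {v : V} (hv : (N ^ h) v = 0) (hi : h ≤ i) : (N ^ i) v = 0 := by
  obtain ⟨j, rfl⟩ := Nat.exists_eq_add_of_le hi
  rw [add_comm, pow_add, Module.End.mul_apply, hv, map_zero]

/-- A nilpotent operator commutes with projections of bounded rank adding up to the identity. -/
theorem exists_pieces {V : Type*} [AddCommGroup V] [Module k V] [FiniteDimensional k V]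
    (N : Module.End k V) {q : ℕ} (hN : N ^ q = 0) (W : Submodule k V) (hW : ∀ w ∈ W, N w ∈ W) :
    ∃ (n : ℕ) (π : Fin n → Module.End k V),
      (∀ i, ∀ w ∈ W, π i w ∈ W ∧ N (π i w) = π i (N w)) ∧
      (∀ i, Module.finrank k (W.map (π i)) ≤ q) ∧ ∀ w ∈ W, ∑ i, π i w = w := by
  suffices H : ∀ (d : ℕ) (W : Submodule k V), Module.finrank k W = d → (∀ w ∈ W, N w ∈ W) →
      ∃ (n : ℕ) (π : Fin n → Module.End k V),
        (∀ i, ∀ w ∈ W, π i w ∈ W ∧ N (π i w) = π i (N w)) ∧
        (∀ i, Module.finrank k (W.map (π i)) ≤ q) ∧ ∀ w ∈ W, ∑ i, π i w = w from H _ W rfl hW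
  intro d
  induction d using Nat.strong_induction_on with
  | _ d ih =>
  intro W hd hW
  have hNi : ∀ i, ∀ w ∈ W, (N ^ i) w ∈ W := by
    intro i
    induction i with
    | zero => intro w hw; simpa using hw
    | succ i IH => intro w hw; rw [pow_succ', Module.End.mul_apply]; exact hW _ (IH w hw)
  by_cases hbot : W = ⊥
  · exact ⟨0, fun i => i.elim0, fun i => i.elim0, fun i => i.elim0, fun w hw => by
      rw [hbot, Submodule.mem_bot] at hw; simp [hw]⟩
  -- the height
  have hex : ∃ h, ∀ w ∈ W, (N ^ h) w = 0 := ⟨q, fun w _ => by rw [hN]; rfl⟩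
  set h := Nat.find hex with hh
  have hh0 : h ≠ 0 := fun h0 => hbot ((Submodule.eq_bot_iff _).2 fun w hw => by
    have := Nat.find_spec hex w hw
    rwa [← hh, h0, pow_zero, Module.End.one_apply] at this)
  have hhq : h ≤ q := Nat.find_min' hex fun w _ => by rw [hN]; rfl
  obtain ⟨v, hvW, hv⟩ : ∃ v ∈ W, (N ^ (h - 1)) v ≠ 0 := by
    by_contra hcon
    push Not at hcon
    exact Nat.find_min hex (Nat.sub_lt (Nat.pos_of_ne_zero hh0) one_pos) hcon
  obtain ⟨ξ, hξ⟩ : ∃ ξ : V →ₗ[k] k, ξ ((N ^ (h - 1)) v) = 1 := by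
    obtain ⟨φ, hφ⟩ := Module.Projective.exists_dual_ne_zero k hv
    exact ⟨(φ ((N ^ (h - 1)) v))⁻¹ • φ, by simp [hφ]⟩
  let T : V →ₗ[k] (Fin h → k) := LinearMap.pi fun i => ξ ∘ₗ (N ^ (i : ℕ))
  let S : (Fin h → k) →ₗ[k] V :=
    { toFun := fun c => ∑ i : Fin h, c i • (N ^ (i : ℕ)) v
      map_add' := fun c c' => by simp only [Pi.add_apply, add_smul, Finset.sum_add_distrib]
      map_smul' := fun r c => by
        simp only [Pi.smul_apply, smul_eq_mul, mul_smul, RingHom.id_apply, Finset.smul_sum] }
  have hinj : Function.Injective (T ∘ₗ S) := by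
    rw [← LinearMap.ker_eq_bot, LinearMap.ker_eq_bot']
    intro c hc
    by_contra hne
    have hne' : (Finset.univ.filter fun i : Fin h => c i ≠ 0).Nonempty := by
      by_contra hemp
      rw [Finset.not_nonempty_iff_eq_empty, Finset.filter_eq_empty_iff] at hemp
      exact hne (funext fun i => by simpa using hemp (Finset.mem_univ i))
    set i₀ := (Finset.univ.filter fun i : Fin h => c i ≠ 0).min' hne' with hi₀
    have hci₀ : c i₀ ≠ 0 := (Finset.mem_filter.1 (Finset.min'_mem _ hne')).2
    have hlt := i₀.isLt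
    have h1 := congrFun hc ⟨h - 1 - i₀, by omega⟩
    simp only [T, S, LinearMap.comp_apply, LinearMap.pi_apply, LinearMap.coe_mk, AddHom.coe_mk,
      map_sum, map_smul, Pi.zero_apply, smul_eq_mul] at h1
    rw [Finset.sum_eq_single i₀] at h1
    · rw [← Module.End.mul_apply, ← pow_add, show h - 1 - (i₀ : ℕ) + i₀ = h - 1 by omega, hξ,
        mul_one] at h1
      exact hci₀ h1
    · intro i _ hi
      rcases lt_or_gt_of_ne hi with hl | hg
      · have : c i = 0 := by
          by_contra h0
          exact absurd (Finset.min'_le (Finset.univ.filter fun i : Fin h => c i ≠ 0) i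
            (Finset.mem_filter.2 ⟨Finset.mem_univ _, h0⟩)) (not_le.2 hl)
        rw [this, zero_mul]
      · have hgt : (i₀ : ℕ) < i := hg
        rw [← Module.End.mul_apply, ← pow_add,
          pow_mul_apply_eq_zero (Nat.find_spec hex v hvW) (by omega), map_zero, mul_zero]
    · simp
  set Θ := LinearEquiv.ofInjectiveEndo _ hinj with hΘ
  let π₀ : Module.End k V := S ∘ₗ Θ.symm.toLinearMap ∘ₗ T
  have hTS : ∀ c, T (π₀ c) = T c := fun c => by
    show (T ∘ₗ S) (Θ.symm (T c)) = T c
    exact Θ.apply_symm_apply (T c)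
  have hπS : ∀ c, π₀ (S c) = S c := fun c => by
    show S (Θ.symm ((T ∘ₗ S) c)) = S c
    exact congrArg S (Θ.symm_apply_apply c)
  have hSW : ∀ c, S c ∈ W := fun c => by
    show ∑ i : Fin h, c i • (N ^ (i : ℕ)) v ∈ W
    exact W.sum_mem fun i _ => W.smul_mem _ (hNi _ v hvW)
  set K := W ⊓ LinearMap.ker T with hK
  have hKN : ∀ w ∈ K, N w ∈ K := by
    rintro w ⟨hw, hwT⟩
    refine ⟨hW w hw, LinearMap.mem_ker.2 (funext fun i => ?_)⟩
    show ξ ((N ^ (i : ℕ)) (N w)) = 0
    rw [← Module.End.mul_apply, ← pow_succ]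
    by_cases hi : (i : ℕ) + 1 < h
    · exact congrFun (LinearMap.mem_ker.1 hwT) ⟨i + 1, hi⟩
    · rw [pow_mul_apply_eq_zero (Nat.find_spec hex w hw) (by omega), map_zero]
  have hNS : ∀ c, ∃ c', N (S c) = S c' := by
    intro c
    refine ⟨fun i => if hi : (i : ℕ) = 0 then 0 else c ⟨i - 1, by omega⟩, ?_⟩
    show N (∑ i : Fin h, c i • (N ^ (i : ℕ)) v) = ∑ i : Fin h, _ • (N ^ (i : ℕ)) v
    obtain ⟨h', hh'⟩ : ∃ h', h = h' + 1 := ⟨h - 1, by omega⟩
    rw [map_sum]
    have hlast : ∀ i : Fin h, N (c i • (N ^ (i : ℕ)) v) = c i • (N ^ ((i : ℕ) + 1)) v := fun i => by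
      rw [map_smul, pow_succ', Module.End.mul_apply]
    simp only [hlast]
    refine Finset.sum_bij_ne_zero (fun i _ hi => (⟨(i : ℕ) + 1, ?_⟩ : Fin h))
      (fun _ _ _ => Finset.mem_univ _) (fun a _ _ b _ _ hab => Fin.ext (by simpa using hab))
      (fun j _ hj => ?_) (fun i _ _ => ?_)
    · by_contra hlt
      exact hi (by rw [pow_mul_apply_eq_zero (Nat.find_spec hex v hvW) (by omega), smul_zero])
    · have hj0 : (j : ℕ) ≠ 0 := fun h0 => hj (by rw [dif_pos h0, zero_smul])
      rw [dif_neg hj0] at hj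
      refine ⟨⟨(j : ℕ) - 1, by omega⟩, Finset.mem_univ _, ?_, Fin.ext (by simp; omega)⟩
      simp only [Nat.sub_add_cancel (Nat.pos_of_ne_zero hj0)]
      exact hj
    · simp
  have hker : ∀ w ∈ W, w - π₀ w ∈ K := fun w hw =>
    ⟨W.sub_mem hw (hSW _), LinearMap.mem_ker.2 (by rw [map_sub, hTS, sub_self])⟩
  have hπK : ∀ w ∈ K, π₀ w = 0 := fun w hw => by
    show S (Θ.symm (T w)) = 0
    rw [LinearMap.mem_ker.1 hw.2, map_zero, map_zero]
  have hcomm : ∀ w ∈ W, N (π₀ w) = π₀ (N w) := by
    intro w hw
    have h1 : π₀ (N (w - π₀ w)) = 0 := hπK _ (hKN _ (hker w hw))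
    rw [map_sub, map_sub, sub_eq_zero] at h1
    obtain ⟨c', hc'⟩ := hNS (Θ.symm (T w))
    rw [h1]
    show N (S (Θ.symm (T w))) = π₀ (N (S (Θ.symm (T w))))
    rw [hc', hπS]
  have hlt : Module.finrank k K < d := by
    rw [← hd]
    refine Submodule.finrank_lt_finrank_of_lt (lt_of_le_of_ne inf_le_left fun he => ?_)
    have hvK : v ∈ K := by rw [he]; exact hvW
    have := congrFun (LinearMap.mem_ker.1 hvK.2) ⟨h - 1, by omega⟩
    exact one_ne_zero (hξ.symm.trans this)
  obtain ⟨n, π, hπ1, hπ2, hπ3⟩ := ih _ hlt K rfl hKN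
  let R : Module.End k V := LinearMap.id - π₀
  have hRW : ∀ w ∈ W, R w ∈ K := fun w hw => hker w hw
  refine ⟨n + 1, Fin.cons π₀ fun i => π i ∘ₗ R, fun i => ?_, fun i => ?_, fun w hw => ?_⟩
  · induction i using Fin.cases with
    | zero => exact fun w hw => ⟨hSW _, hcomm w hw⟩
    | succ i =>
      intro w hw
      simp only [Fin.cons_succ, LinearMap.comp_apply]
      refine ⟨(hπ1 i _ (hRW w hw)).1.1, ?_⟩
      rw [(hπ1 i _ (hRW w hw)).2]
      congr 1
      show N (w - π₀ w) = N w - π₀ (N w)
      rw [map_sub, hcomm w hw]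
  · induction i using Fin.cases with
    | zero =>
      refine le_trans (Submodule.finrank_mono (?_ : W.map π₀ ≤ LinearMap.range S)) ?_
      · rintro _ ⟨w, -, rfl⟩; exact ⟨_, rfl⟩
      · refine (LinearMap.finrank_range_le S).trans ?_
        rw [Module.finrank_fin_fun]
        exact hhq
    | succ i =>
      refine le_trans (Submodule.finrank_mono ?_) (hπ2 i)
      rintro _ ⟨w, hw, rfl⟩
      exact ⟨R w, hRW w hw, rfl⟩
  · rw [Fin.sum_univ_succ]
    simp only [Fin.cons_zero, Fin.cons_succ, LinearMap.comp_apply]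
    rw [hπ3 _ (hRW w hw)]
    show π₀ w + (w - π₀ w) = w
    abel

section LocalAlg

variable [IsAlgClosed k] {A : Type*} [Ring A] [Algebra k A] [FiniteDimensional k A] [Nontrivial A]

/-- Without idempotents an element is a scalar plus a nilpotent. -/
theorem exists_scalar_nilpotent (hA : ∀ e : A, e * e = e → e = 0 ∨ e = 1) (a : A) :
    ∃ c : k, IsNilpotent (a - algebraMap k A c) := by
  obtain ⟨g, hg, hga⟩ : IsIntegral k a := IsIntegral.of_finite k a
  have hga' : aeval a g = 0 := hga
  suffices H : ∀ (n : ℕ) (g : k[X]), g.natDegree = n → g.Monic → aeval a g = 0 →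
      ∃ c : k, IsNilpotent (a - algebraMap k A c) from H _ g rfl hg hga'
  intro n
  induction n using Nat.strong_induction_on with
  | _ n ih =>
  intro g hn hg hga
  have hdeg : g.natDegree ≠ 0 := fun h0 => by
    rw [hg.natDegree_eq_zero] at h0
    rw [h0, map_one] at hga
    exact one_ne_zero hga
  obtain ⟨c, hc⟩ := IsAlgClosed.exists_root g (fun h => hdeg
    (natDegree_eq_of_degree_eq_some (n := 0) h))
  obtain ⟨q, hq, hq0⟩ := exists_eq_pow_rootMultiplicity_mul_and_not_dvd g hg.ne_zero c
  set r := rootMultiplicity c g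
  have hr : r ≠ 0 := ne_of_gt ((rootMultiplicity_pos hg.ne_zero).2 hc)
  have hqm : q.Monic := ((monic_X_sub_C c).pow r).of_mul_monic_left (hq ▸ hg)
  by_cases hq1 : q.natDegree = 0
  · refine ⟨c, r, ?_⟩
    rw [hqm.natDegree_eq_zero.1 hq1, mul_one] at hq
    rw [hq, map_pow, map_sub, aeval_X, aeval_C] at hga
    exact hga
  obtain ⟨u, w, huw⟩ := (((irreducible_X_sub_C c).coprime_iff_not_dvd).2 hq0).pow_left (m := r)
  set e := aeval a (u * (X - C c) ^ r) with he
  have hee : e * e = e := by
    rw [he, ← map_mul, ← sub_eq_zero, ← map_sub,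
      show u * (X - C c) ^ r * (u * (X - C c) ^ r) - u * (X - C c) ^ r =
        -(u * w) * ((X - C c) ^ r * q) by linear_combination (u * (X - C c) ^ r) * huw,
      ← hq, map_mul, hga, mul_zero]
  have hwe : aeval a (w * q) = 1 - e := by
    rw [he, eq_sub_iff_add_eq, ← map_add, add_comm, huw, map_one]
  rcases hA e hee with h | h
  · refine ⟨c, r, ?_⟩
    have h2 : aeval a ((X - C c) ^ r * (w * q)) = 0 := by
      rw [show (X - C c) ^ r * (w * q) = w * ((X - C c) ^ r * q) by ring, ← hq, map_mul, hga,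
        mul_zero]
    rw [map_mul, hwe, h, sub_zero, mul_one] at h2
    simpa using h2
  · refine ih q.natDegree ?_ q rfl hqm ?_
    · rw [← hn, hq, (((monic_X_sub_C c).pow r)).natDegree_mul hqm, natDegree_pow,
        natDegree_X_sub_C, mul_one]
      omega
    · have h2 : aeval a (q * (u * (X - C c) ^ r)) = 0 := by
        rw [show q * (u * (X - C c) ^ r) = u * ((X - C c) ^ r * q) by ring, ← hq, map_mul, hga,
          mul_zero]
      rwa [map_mul, ← he, h, mul_one] at h2

/-- Either the algebra has one generator or there are two tangent functionals. -/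
theorem exists_gen_or_tangents (hA : ∀ e : A, e * e = e → e = 0 ∨ e = 1) :
    (∃ x : A, Algebra.adjoin k ({x} : Set A) = ⊤) ∨
    ∃ (s : A →ₐ[k] k) (α β : A →ₗ[k] k) (x y : A),
      (∀ a b, α (a * b) = s a * α b + α a * s b) ∧ (∀ a b, β (a * b) = s a * β b + β a * s b) ∧
      s x = 0 ∧ s y = 0 ∧ α x = 1 ∧ α y = 0 ∧ β x = 0 ∧ β y = 1 := by
  choose sf hsf using exists_scalar_nilpotent (k := k) hA
  have hnu : ∀ a : A, ¬ IsNilpotent a → IsUnit a := by
    intro a ha
    have hc : sf a ≠ 0 := fun h0 => ha (by simpa [h0] using hsf a)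
    have hu : IsUnit (algebraMap k A (sf a)) := (isUnit_iff_ne_zero.2 hc).map _
    have := (hsf a).isUnit_add_left_of_commute hu
      (Algebra.commute_algebraMap_right (sf a) (a - algebraMap k A (sf a)))
    simpa using this
  have hmulr : ∀ a b : A, IsNilpotent b → IsNilpotent (a * b) := by
    intro a b hb
    by_contra hn
    obtain ⟨i, hi⟩ := (hnu _ hn).exists_left_inv
    obtain ⟨n, hn0⟩ := hb
    have h1 : ∀ j : ℕ, j ≤ n → b ^ (n - j) = 0 := by
      intro j
      induction j with
      | zero => intro _; simpa using hn0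
      | succ j IH =>
        intro hj
        have h2 := IH (by omega)
        rw [show n - j = (n - (j + 1)) + 1 by omega, pow_succ'] at h2
        calc b ^ (n - (j + 1)) = (i * a) * (b * b ^ (n - (j + 1))) := by
              rw [← mul_assoc, mul_assoc i a b, hi, one_mul]
          _ = 0 := by rw [h2, mul_zero]
    have := h1 n le_rfl
    rw [Nat.sub_self, pow_zero] at this
    exact one_ne_zero this
  have hadd : ∀ a b : A, IsNilpotent a → IsNilpotent b → IsNilpotent (a + b) := by
    intro a b ha hb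
    by_contra hn
    obtain ⟨i, hi⟩ := (hnu _ hn).exists_left_inv
    have h1 := (hmulr i a ha).isUnit_one_sub
    rw [show 1 - i * a = i * b by rw [← hi, mul_add, add_sub_cancel_left]] at h1
    exact not_isUnit_zero (by
      obtain ⟨n, hn0⟩ := hmulr i b hb
      exact hn0 ▸ h1.pow n)
  have huniq : ∀ (a : A) (c : k), IsNilpotent (a - algebraMap k A c) → c = sf a := by
    intro a c hc
    by_contra hne
    have h1 := hadd _ _ hc (hsf a).neg
    rw [← sub_eq_add_neg, sub_sub_sub_cancel_left, ← map_sub] at h1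
    have hu : IsUnit (algebraMap k A (sf a - c)) :=
      (isUnit_iff_ne_zero.2 (sub_ne_zero.2 (Ne.symm hne))).map _
    obtain ⟨n, hn⟩ := h1
    exact not_isUnit_zero (hn ▸ hu.pow n)
  let s : A →ₐ[k] k :=
    { toFun := sf
      map_one' := (huniq 1 1 (by simp)).symm
      map_zero' := (huniq 0 0 (by simp)).symm
      map_add' := fun a b => (huniq _ _ (by
        have := hadd _ _ (hsf a) (hsf b)
        rw [map_add]
        convert this using 1
        abel)).symm
      map_mul' := fun a b => (huniq _ _ (by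
        have := hadd _ _ (hmulr a _ (hsf b))
          (hmulr (algebraMap k A (sf b)) _ (hsf a))
        rw [map_mul]
        convert this using 1
        rw [mul_sub, mul_sub, (Algebra.commutes (sf b) a).symm, ← map_mul, ← map_mul,
          mul_comm (sf b) (sf a)]
        abel)).symm
      commutes' := fun c => (huniq _ c (by simp)).symm }
  have hs : ∀ a, IsNilpotent (a - algebraMap k A (s a)) := hsf
  set J : Submodule k A := LinearMap.ker s.toLinearMap with hJ
  have hJmem : ∀ a, a ∈ J ↔ s a = 0 := fun a => Iff.rfl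
  have hJnil : ∀ a ∈ J, IsNilpotent a := fun a ha => by
    have := hs a
    rwa [(hJmem a).1 ha, map_zero, sub_zero] at this
  have hTJ : ∀ a : A, ∀ j ∈ J, a * j ∈ J := fun a j hj => by
    rw [hJmem, map_mul, (hJmem j).1 hj, mul_zero]
  -- no left stable subspace is fixed by `J`
  have hnak : ∀ W : Submodule k A, (∀ a : A, ∀ w ∈ W, a * w ∈ W) → W ≤ J * W → W = ⊥ := by
    intro W hW hle
    by_contra hne
    let P : ℕ → Prop := fun n => ∃ W' : Submodule k A, W' < W ∧ (∀ a : A, ∀ w ∈ W', a * w ∈ W') ∧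
      Module.finrank k W - Module.finrank k W' = n
    have hP : ∃ n, P n := ⟨_, ⊥, bot_lt_iff_ne_bot.2 hne,
      fun a w hw => by simp [(Submodule.mem_bot k).1 hw], rfl⟩
    obtain ⟨W', hlt, hW', hn⟩ := Nat.find_spec hP
    obtain ⟨x, hx, hx'⟩ := SetLike.exists_of_lt hlt
    have hmax : ∀ z ∈ W, z ∉ W' → ∀ t ∈ W, ∃ a, t - a * z ∈ W' := by
      intro z hz hz' t ht
      let U : Submodule k A := W' ⊔ Submodule.map (LinearMap.mulRight k z) ⊤
      have hUW : U ≤ W := sup_le hlt.le (by rintro _ ⟨a, -, rfl⟩; exact hW a z hz)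
      have hU : U = W := by
        by_contra hUne
        have h1 : Module.finrank k W' < Module.finrank k U := Submodule.finrank_lt_finrank_of_lt
          (lt_of_le_of_ne le_sup_left fun he => hz' (he ▸ Submodule.mem_sup_right
            ⟨1, trivial, by simp⟩))
        have h2 : Module.finrank k U < Module.finrank k W :=
          Submodule.finrank_lt_finrank_of_lt (lt_of_le_of_ne hUW hUne)
        refine Nat.find_min hP (m := Module.finrank k W - Module.finrank k U) (by omega)
          ⟨U, lt_of_le_of_ne hUW hUne, ?_, rfl⟩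
        intro a w hw
        obtain ⟨w', hw', _, ⟨b, -, rfl⟩, rfl⟩ := Submodule.mem_sup.1 hw
        rw [mul_add]
        exact add_mem (Submodule.mem_sup_left (hW' a _ hw'))
          (Submodule.mem_sup_right ⟨a * b, trivial, by simp [mul_assoc]⟩)
      obtain ⟨w', hw', _, ⟨b, -, rfl⟩, rfl⟩ := Submodule.mem_sup.1 (hU.symm ▸ ht : t ∈ U)
      exact ⟨b, by simpa using hw'⟩
    refine hx' ((hle.trans ?_ : W ≤ W') hx)
    refine Submodule.mul_le.2 fun j hj w hw => ?_
    by_contra hjw
    obtain ⟨a, ha⟩ := hmax (j * w) (hW j w hw) hjw w hw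
    rw [← mul_assoc, show w - a * j * w = (1 - a * j) * w by noncomm_ring] at ha
    obtain ⟨i, hi⟩ := (hJnil _ (hTJ a j hj)).isUnit_one_sub.exists_left_inv
    have h3 := hW' (j * i) _ ha
    rw [mul_assoc, ← mul_assoc i, hi, one_mul] at h3
    exact hjw h3
  set J2 : Submodule k A := J * J with hJ2
  by_cases h1 : ∃ x ∈ J, J ≤ Submodule.span k {x} ⊔ J2
  · refine Or.inl ?_
    obtain ⟨x, hx, hle⟩ := h1
    refine ⟨x, ?_⟩
    set S := Algebra.adjoin k ({x} : Set A)
    have hxS : x ∈ S := Algebra.subset_adjoin rfl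
    have hxJ : Submodule.span k {x} ≤ J := (Submodule.span_singleton_le_iff_mem _ _).2 hx
    have hpow : ∀ n : ℕ, J ^ (n + 1) ≤ Submodule.span k {x ^ (n + 1)} ⊔ J ^ (n + 2) := by
      intro n
      induction n with
      | zero => simpa [pow_succ, hJ2] using hle
      | succ n IH =>
        calc J ^ (n + 1 + 1) = J ^ (n + 1) * J := pow_succ _ _
          _ ≤ (Submodule.span k {x ^ (n + 1)} ⊔ J ^ (n + 2)) * J :=
              mul_le_mul' IH le_rfl
          _ = Submodule.span k {x ^ (n + 1)} * J ⊔ J ^ (n + 1 + 2) := by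
              rw [Submodule.sup_mul, ← pow_succ]
          _ ≤ _ := by
              refine sup_le ?_ le_sup_right
              calc Submodule.span k {x ^ (n + 1)} * J
                  ≤ Submodule.span k {x ^ (n + 1)} * (Submodule.span k {x} ⊔ J2) :=
                    mul_le_mul' le_rfl hle
                _ = Submodule.span k {x ^ (n + 1)} * Submodule.span k {x} ⊔
                    Submodule.span k {x ^ (n + 1)} * J2 := Submodule.mul_sup _ _ _
                _ ≤ _ := by
                    refine sup_le ?_ ?_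
                    · rw [Submodule.span_mul_span, Set.singleton_mul_singleton, ← pow_succ]
                      exact le_sup_left
                    · refine le_trans (mul_le_mul' (?_ : _ ≤ J ^ (n + 1)) le_rfl) ?_
                      · exact (Submodule.span_singleton_le_iff_mem _ _).2
                          (Submodule.pow_mem_pow _ hx _)
                      · rw [hJ2, ← pow_two, ← pow_add]
                        exact le_sup_right
    have hdown : ∀ n : ℕ, J ≤ Subalgebra.toSubmodule S ⊔ J ^ (n + 1) := by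
      intro n
      induction n with
      | zero => rw [zero_add, pow_one]; exact le_sup_right
      | succ n IH =>
        refine IH.trans (sup_le le_sup_left ((hpow n).trans (sup_le_sup_right ?_ _)))
        exact (Submodule.span_singleton_le_iff_mem _ _).2 (S.pow_mem hxS _)
    have hdec : ∀ n : ℕ, J ^ (n + 1) ≠ ⊥ →
        Module.finrank k ↥(J ^ (n + 2)) < Module.finrank k ↥(J ^ (n + 1)) := by
      intro n hn
      have hst : ∀ a : A, ∀ w ∈ J ^ (n + 1), a * w ∈ J ^ (n + 1) := by
        intro a w hw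
        rw [pow_succ'] at hw ⊢
        refine Submodule.mul_induction_on hw (fun j hj z hz => ?_) fun z z' hz hz' => ?_
        · rw [← mul_assoc]
          exact Submodule.mul_mem_mul (hTJ a j hj) hz
        · rw [mul_add]; exact add_mem hz hz'
      have hle' : J ^ (n + 2) ≤ J ^ (n + 1) := by
        rw [pow_succ' J (n + 1)]
        exact Submodule.mul_le.2 fun j _ w hw => hst j w hw
      refine Submodule.finrank_lt_finrank_of_lt (lt_of_le_of_ne hle' fun he => hn (hnak _ hst ?_))
      rw [← pow_succ' J (n + 1)]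
      exact he.ge
    obtain ⟨N, hN⟩ : ∃ N : ℕ, J ^ (N + 1) = ⊥ := by
      by_contra hcon
      push Not at hcon
      have hbound : ∀ n : ℕ, Module.finrank k ↥(J ^ (n + 1)) + n ≤ Module.finrank k ↥(J ^ 1) := by
        intro n
        induction n with
        | zero => simp
        | succ n IH =>
          have := hdec n (hcon n)
          rw [show n + 1 + 1 = n + 2 from rfl]
          omega
      have h2 := hbound (Module.finrank k ↥(J ^ 1) + 1)
      omega
    have hJS : J ≤ Subalgebra.toSubmodule S := by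
      have := hdown N
      rwa [hN, sup_bot_eq] at this
    refine eq_top_iff.2 fun a _ => ?_
    have hmem : a - algebraMap k A (s a) ∈ J := (hJmem _).2 (by simp)
    have := S.add_mem (hJS hmem) (S.algebraMap_mem (s a))
    rwa [sub_add_cancel] at this
  · refine Or.inr ?_
    push Not at h1
    have hJne : ¬ J ≤ J2 := fun hle => h1 0 J.zero_mem (hle.trans le_sup_right)
    obtain ⟨x, hx, hx2⟩ := SetLike.not_le_iff_exists.1 hJne
    obtain ⟨y, hy, hy2⟩ := SetLike.not_le_iff_exists.1 (h1 x hx)
    -- the constants meet `J` trivially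
    have hone : ∀ c : k, ∀ j ∈ J, algebraMap k A c + j ∈ J → c = 0 := by
      intro c j hj hcj
      have := (hJmem _).1 hcj
      rwa [map_add, (hJmem j).1 hj, add_zero, AlgHom.commutes] at this
    have hJ2J : J2 ≤ J := Submodule.mul_le.2 fun a _ b hb => hTJ a b hb
    have hfun : ∀ z w : A, z ∈ J → w ∈ J → z ∉ Submodule.span k {w} ⊔ J2 →
        ∃ φ : A →ₗ[k] k, φ 1 = 0 ∧ φ z = 1 ∧ φ w = 0 ∧ ∀ j ∈ J2, φ j = 0 := by
      intro z w hz hw hzw
      have hnot : z ∉ Submodule.span k {(1 : A)} ⊔ (Submodule.span k {w} ⊔ J2) := by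
        intro h
        obtain ⟨o, ho, j, hj, he⟩ := Submodule.mem_sup.1 h
        obtain ⟨c, rfl⟩ := Submodule.mem_span_singleton.1 ho
        have hjJ : j ∈ J := sup_le ((Submodule.span_singleton_le_iff_mem _ _).2 hw) hJ2J hj
        rw [Algebra.smul_def, mul_one] at he
        have hc := hone c j hjJ (he ▸ hz)
        rw [hc, map_zero, zero_add] at he
        exact hzw (he ▸ hj)
      obtain ⟨f, hf, hfz⟩ := Submodule.exists_dual_map_eq_bot_of_notMem hnot inferInstance
      have hf0 : ∀ t ∈ Submodule.span k {(1 : A)} ⊔ (Submodule.span k {w} ⊔ J2), f t = 0 := by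
        intro t ht
        have : f t ∈ (Submodule.span k {(1 : A)} ⊔ (Submodule.span k {w} ⊔ J2)).map f :=
          ⟨t, ht, rfl⟩
        rwa [hfz, Submodule.mem_bot] at this
      refine ⟨(f z)⁻¹ • f, ?_, ?_, ?_, fun j hj => ?_⟩
      · rw [LinearMap.smul_apply,
          hf0 1 (Submodule.mem_sup_left (Submodule.subset_span rfl)), smul_zero]
      · rw [LinearMap.smul_apply, smul_eq_mul, inv_mul_cancel₀ hf]
      · rw [LinearMap.smul_apply, hf0 w (Submodule.mem_sup_right
          (Submodule.mem_sup_left (Submodule.subset_span rfl))), smul_zero]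
      · rw [LinearMap.smul_apply, hf0 j (Submodule.mem_sup_right (Submodule.mem_sup_right hj)),
          smul_zero]
    have hxy : x ∉ Submodule.span k {y} ⊔ J2 := by
      intro h
      obtain ⟨o, ho, j, hj, he⟩ := Submodule.mem_sup.1 h
      obtain ⟨c, rfl⟩ := Submodule.mem_span_singleton.1 ho
      by_cases hc : c = 0
      · rw [hc, zero_smul, zero_add] at he
        exact hx2 (he ▸ hj)
      · refine hy2 (Submodule.mem_sup.2 ⟨c⁻¹ • x, Submodule.smul_mem _ _
          (Submodule.subset_span rfl), -(c⁻¹ • j), neg_mem (J2.smul_mem _ hj), ?_⟩)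
        rw [← he, smul_add, inv_smul_smul₀ hc]
        abel
    obtain ⟨α, hα1, hαx, hαy, hα2⟩ := hfun x y hx hy hxy
    obtain ⟨β, hβ1, hβy, hβx, hβ2⟩ := hfun y x hy hx hy2
    have hder : ∀ φ : A →ₗ[k] k, φ 1 = 0 → (∀ j ∈ J2, φ j = 0) →
        ∀ a b, φ (a * b) = s a * φ b + φ a * s b := by
      intro φ hφ1 hφ2 a b
      have hsc : ∀ c : k, φ (algebraMap k A c) = 0 := fun c => by
        rw [Algebra.algebraMap_eq_smul_one, map_smul, hφ1, smul_zero]
      have hdec : ∀ a : A, a - algebraMap k A (s a) ∈ J := fun a => (hJmem _).2 (by simp)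
      have h2 := hφ2 _ (Submodule.mul_mem_mul (hdec a) (hdec b))
      rw [sub_mul, mul_sub, mul_sub, map_sub, map_sub, map_sub,
        ← Algebra.commutes (s b) a, ← Algebra.smul_def, ← Algebra.smul_def,
        ← map_mul (algebraMap k A), hsc, map_smul, map_smul, smul_eq_mul, smul_eq_mul,
        sub_zero] at h2
      linear_combination h2
    exact ⟨s, α, β, x, y, hder α hα1 hα2, hder β hβ1 hβ2, (hJmem x).1 hx, (hJmem y).1 hy, hαx, hαy,
      hβx, hβy⟩

/-- An algebra with two tangent functionals has large modules with scalar plus nilpotent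
endomorphisms. -/
theorem exists_large_module {s : A →ₐ[k] k} {α β : A →ₗ[k] k} {x y : A}
    (hα : ∀ a b, α (a * b) = s a * α b + α a * s b)
    (hβ : ∀ a b, β (a * b) = s a * β b + β a * s b)
    (hx : s x = 0) (hy : s y = 0) (hαx : α x = 1) (hαy : α y = 0) (hβx : β x = 0) (hβy : β y = 1)
    (m : ℕ) [NeZero m] :
    ∃ (ρ : A →ₐ[k] Module.End k ((Fin m → k) × (Fin m → k)))
      (c : Module.End k ((Fin m → k) × (Fin m → k)) →ₗ[k] k),
      c 1 = 1 ∧ ∀ f : Module.End k ((Fin m → k) × (Fin m → k)), (∀ a, f * ρ a = ρ a * f) →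
        IsNilpotent (f - algebraMap k _ (c f)) := by
  let N : (Fin m → k) →ₗ[k] (Fin m → k) :=
    LinearMap.pi fun i => if h : (i : ℕ) + 1 < m then LinearMap.proj ⟨i + 1, h⟩ else 0
  have hNap : ∀ (v : Fin m → k) (i : Fin m),
      N v i = if h : (i : ℕ) + 1 < m then v ⟨i + 1, h⟩ else 0 := by
    intro v i
    simp only [N, LinearMap.pi_apply]
    split_ifs <;> rfl
  let ρf : A → Module.End k ((Fin m → k) × (Fin m → k)) := fun a =>
    { toFun := fun z => (s a • z.1, s a • z.2 + α a • z.1 + β a • N z.1)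
      map_add' := fun z z' => by
        simp only [Prod.fst_add, Prod.snd_add, smul_add, map_add, Prod.mk_add_mk]
        exact Prod.ext rfl (by simp only; abel)
      map_smul' := fun r z => by
        simp only [Prod.smul_fst, Prod.smul_snd, map_smul, smul_comm _ r, ← smul_add,
          RingHom.id_apply, Prod.smul_mk] }
  have hα1 : α 1 = 0 := by simpa using hα 1 1
  have hβ1 : β 1 = 0 := by simpa using hβ 1 1
  let ρ : A →ₐ[k] Module.End k ((Fin m → k) × (Fin m → k)) := AlgHom.ofLinearMap
    { toFun := ρf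
      map_add' := fun a b => LinearMap.ext fun z => by
        refine Prod.ext ?_ ?_ <;> simp [ρf, add_smul]
        abel
      map_smul' := fun r a => LinearMap.ext fun z => by
        refine Prod.ext ?_ ?_ <;> simp [ρf, mul_smul, smul_add] }
    (LinearMap.ext fun z => by simp [ρf, hα1, hβ1])
    (fun a b => LinearMap.ext fun z => by
      refine Prod.ext ?_ ?_
      · simp [ρf, mul_smul]
      · show s (a * b) • z.2 + α (a * b) • z.1 + β (a * b) • N z.1 =
          s a • (s b • z.2 + α b • z.1 + β b • N z.1) + α a • (s b • z.1) + β a • N (s b • z.1)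
        rw [map_mul, hα, hβ, map_smul]
        simp only [add_smul, mul_smul, smul_add]
        abel)
  have hρx : ∀ z, ρ x z = (0, z.1) := fun z => by
    show (s x • z.1, s x • z.2 + α x • z.1 + β x • N z.1) = _
    rw [hx, hαx, hβx]
    simp
  have hρy : ∀ z, ρ y z = (0, N z.1) := fun z => by
    show (s y • z.1, s y • z.2 + α y • z.1 + β y • N z.1) = _
    rw [hy, hαy, hβy]
    simp
  have h0m : 0 < m := Nat.pos_of_ne_zero (NeZero.ne m)
  set e₀ : Fin m → k := Pi.single ⟨0, h0m⟩ 1 with he₀
  let c : Module.End k ((Fin m → k) × (Fin m → k)) →ₗ[k] k :=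
    { toFun := fun f => (f (e₀, 0)).1 ⟨0, h0m⟩
      map_add' := fun f g => by simp
      map_smul' := fun r f => by simp }
  refine ⟨ρ, c, by simp [c, he₀], fun f hf => ?_⟩
  have hfX : ∀ z, f (0, z.1) = (0, (f z).1) := fun z => by
    have := LinearMap.congr_fun (hf x) z
    rwa [Module.End.mul_apply, Module.End.mul_apply, hρx, hρx] at this
  let b : (Fin m → k) →ₗ[k] (Fin m → k) :=
    { toFun := fun v => (f (v, 0)).1 - c f • v
      map_add' := fun v w => by
        rw [show ((v + w, 0) : (Fin m → k) × (Fin m → k)) = (v, 0) + (w, 0) by simp, map_add,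
          Prod.fst_add, smul_add]
        abel
      map_smul' := fun r v => by
        rw [show ((r • v, 0) : (Fin m → k) × (Fin m → k)) = r • (v, 0) by simp, map_smul,
          Prod.smul_fst, smul_comm, RingHom.id_apply, smul_sub] }
  have hbN : ∀ v, b (N v) = N (b v) := by
    intro v
    have h1 := LinearMap.congr_fun (hf y) (v, 0)
    rw [Module.End.mul_apply, Module.End.mul_apply, hρy, hρy] at h1
    have h2 := hfX (N v, 0)
    simp only at h1 h2
    rw [h2] at h1
    show (f (N v, 0)).1 - c f • N v = N ((f (v, 0)).1 - c f • v)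
    rw [map_sub, map_smul]
    congr 1
    exact (Prod.ext_iff.1 h1).2
  have hkerN : ∀ v, N v = 0 → v = v ⟨0, h0m⟩ • e₀ := by
    intro v hv
    funext i
    by_cases hi : (i : ℕ) = 0
    · obtain rfl : i = ⟨0, h0m⟩ := Fin.ext hi
      simp [he₀]
    · have h1 := congrFun hv ⟨(i : ℕ) - 1, by omega⟩
      rw [hNap, dif_pos (show (i : ℕ) - 1 + 1 < m by omega)] at h1
      have h2 : (⟨(i : ℕ) - 1 + 1, by omega⟩ : Fin m) = i := Fin.ext (by simp; omega)
      rw [h2] at h1
      simp [he₀, h1, Fin.ext_iff, hi]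
  have hbe : b e₀ = 0 := by
    have hNe : N e₀ = 0 := funext fun i => by
      rw [hNap]
      split_ifs with hlt
      · rw [he₀, Pi.single_eq_of_ne (fun he => Nat.succ_ne_zero (i : ℕ) (congrArg Fin.val he))]
        rfl
      · rfl
    have h1 := hkerN (b e₀) (by rw [← hbN, hNe, map_zero])
    have h2 : b e₀ ⟨0, h0m⟩ = 0 := by
      show (f (e₀, 0)).1 ⟨0, h0m⟩ - c f * e₀ ⟨0, h0m⟩ = 0
      simp [c, he₀]
    rw [h1, h2, zero_smul]
  have hNi : ∀ (i : ℕ) (v : Fin m → k) (j : Fin m),
      (N ^ i) v j = if h : (j : ℕ) + i < m then v ⟨j + i, h⟩ else 0 := by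
    intro i
    induction i with
    | zero => intro v j; simp
    | succ i IH =>
      intro v j
      rw [pow_succ, Module.End.mul_apply, IH]
      split_ifs with h1 h2 h3
      · rw [hNap, dif_pos (show (j : ℕ) + i + 1 < m by omega)]
        congr 1
      · rw [hNap, dif_neg (show ¬ ((j : ℕ) + i + 1 < m) by omega)]
      · omega
      · rfl
  have hbi : ∀ (i : ℕ) (v : Fin m → k), (N ^ i) v = 0 → (b ^ i) v = 0 := by
    intro i
    induction i with
    | zero => intro v hv; simpa using hv
    | succ i IH =>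
      intro v hv
      rw [pow_succ, Module.End.mul_apply]
      refine IH _ ?_
      have hcom : Commute b N := LinearMap.ext hbN
      rw [← Module.End.mul_apply, ← (hcom.pow_right i).eq, Module.End.mul_apply]
      have h1 : N ((N ^ i) v) = 0 := by rwa [pow_succ', Module.End.mul_apply] at hv
      rw [hkerN _ h1, map_smul, hbe, smul_zero]
  have hbm : ∀ v, (b ^ m) v = 0 := fun v => hbi m v (funext fun j => by
    rw [hNi, dif_neg (by omega)]; rfl)
  set g := f - algebraMap k (Module.End k ((Fin m → k) × (Fin m → k))) (c f)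
  have hg1 : ∀ z, (g z).1 = b z.1 := by
    intro z
    have hz : z = (z.1, 0) + (0, z.2) := by simp
    show (f z - c f • z).1 = (f (z.1, 0)).1 - c f • z.1
    rw [Prod.fst_sub, Prod.smul_fst]
    congr 1
    conv_lhs => rw [hz, map_add, Prod.fst_add]
    have := hfX (z.2, 0)
    simp only at this
    rw [this, add_zero]
  have hg2 : ∀ w, g (0, w) = (0, b w) := by
    intro w
    show f (0, w) - c f • ((0 : Fin m → k), w) = (0, (f (w, 0)).1 - c f • w)
    have := hfX (w, 0)
    simp only at this
    rw [this]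
    simp
  have hgn1 : ∀ (i : ℕ) z, ((g ^ i) z).1 = (b ^ i) z.1 := by
    intro i
    induction i with
    | zero => intro z; simp
    | succ i IH =>
      intro z
      rw [pow_succ', pow_succ', Module.End.mul_apply, Module.End.mul_apply, hg1, IH]
  have hgn2 : ∀ (i : ℕ) w, (g ^ i) (0, w) = (0, (b ^ i) w) := by
    intro i
    induction i with
    | zero => intro w; simp
    | succ i IH =>
      intro w
      rw [pow_succ', pow_succ', Module.End.mul_apply, Module.End.mul_apply, IH, hg2]
  refine ⟨m + m, LinearMap.ext fun z => ?_⟩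
  rw [pow_add, Module.End.mul_apply, LinearMap.zero_apply,
    show (g ^ m) z = (0, ((g ^ m) z).2) from Prod.ext ((hgn1 m z).trans (hbm _)) rfl,
    hgn2, hbm]
  rfl

end LocalAlg

end Cfsg.Agent.BrauerPairs.CyclicDefect
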