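import Cfsg.Agent.BrauerPairs.CyclicDefect.Induce
import Cfsg.Agent.BrauerPairs.Nil.Poly
import Cfsg.Agent.BrauerPairs.Nil.Step
import Cfsg.Agent.BrauerPairs.RankOne
import Cfsg.Agent.Brauer.ResAlgClosed
import Cfsg.Agent.Brauer.ProjVec
import Cfsg.Agent.BlkChar.BlockAlgebra
import Cfsg.Agent.BlockVal.SquareSum

/-!
# Blocks with cyclic defect group: the corner at a primitive idempotent

The corner has one generator; lifted to characteristic zero it is commutative, so no irreducible
character takes a value above one at the idempotent.  With one Brauer character all degrees in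
the block are then equal.
-/

set_option maxHeartbeats 400000
set_option linter.unusedSectionVars false
set_option linter.style.haveILetI false

namespace Cfsg.Agent.BrauerPairs.CyclicDefect

open MonoidAlgebra Cfsg
open scoped Classical ComplexConjugate

universe u

variable {G : Type u} [Group G] [Fintype G]

/-- Left and right multiplication by `a`, as a matrix. -/
noncomputable def cornerMat {R : Type*} [CommRing R] (a : MonoidAlgebra R G) : Matrix G G R :=
  Matrix.of fun g h => (a * single h 1 * a).coeff g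

theorem ofFn_eq_sum {R : Type*} [CommRing R] (v : G → R) :
    (Block.ofFn v : MonoidAlgebra R G) = ∑ h : G, v h • single h 1 := by
  refine Block.groupAlgebra_ext fun g => ?_
  simp [Block.coeff_ofFn, coeff_sum, Finsupp.single_apply]

theorem cornerMat_mulVec {R : Type*} [CommRing R] (a : MonoidAlgebra R G) (v : G → R) :
    (cornerMat a).mulVec v = fun g => (a * Block.ofFn v * a).coeff g := by
  funext g
  rw [ofFn_eq_sum, Finset.mul_sum, Finset.sum_mul, coeff_sum, Finsupp.finsetSum_apply]
  simp only [Matrix.mulVec, dotProduct, cornerMat, Matrix.of_apply]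
  exact Finset.sum_congr rfl fun h _ => by
    rw [mul_smul_comm, smul_mul_assoc, coeff_smul, Finsupp.smul_apply, smul_eq_mul, mul_comm]

theorem ofFn_coeff {R : Type*} [CommRing R] (a : MonoidAlgebra R G) :
    Block.ofFn (fun g => a.coeff g) = a :=
  Block.groupAlgebra_ext fun g => by rw [Block.coeff_ofFn]

theorem cornerMat_mul_self {R : Type*} [CommRing R] {a : MonoidAlgebra R G} (ha : a * a = a) :
    cornerMat a * cornerMat a = cornerMat a := by
  refine Matrix.ext_of_mulVec_single fun y => ?_
  rw [← Matrix.mulVec_mulVec, cornerMat_mulVec, cornerMat_mulVec, ofFn_coeff]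
  funext g
  congr 2
  rw [← mul_assoc, ← mul_assoc, ha, mul_assoc, ha]

theorem cornerMat_mapR {R S : Type*} [CommRing R] [CommRing S] (f : R →+* S)
    (a : MonoidAlgebra R G) : (cornerMat a).map f = cornerMat (Block.mapR f a) := by
  ext g h
  simp only [cornerMat, Matrix.map_apply, Matrix.of_apply]
  have hs : Block.mapR f (single h (1 : R)) = single h (1 : S) := by
    refine Block.groupAlgebra_ext fun y => ?_
    rw [Block.coeff_mapR, coeff_single, coeff_single, Finsupp.single_apply, Finsupp.single_apply]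
    split_ifs <;> simp
  rw [← Block.coeff_mapR, map_mul, map_mul, hs]

theorem mem_range_cornerMat {R : Type*} [CommRing R] {a z : MonoidAlgebra R G}
    (hz : a * z * a = z) : (fun g => z.coeff g) ∈ LinearMap.range (cornerMat a).mulVecLin :=
  ⟨fun g => z.coeff g, by rw [Matrix.mulVecLin_apply, cornerMat_mulVec, ofFn_coeff, hz]⟩

theorem exists_min_idem {k : Type*} [Field k] {b : MonoidAlgebra k G} (hbb : b * b = b)
    (hb0 : b ≠ 0) (hbc : ∀ z, z * b = b * z) :
    ∃ e, e * e = e ∧ e ≠ 0 ∧ b * e = e ∧
      ∀ f, f * f = f → e * f * e = f → f = 0 ∨ f = e := by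
  let S : Set ℕ := {n | ∃ e : MonoidAlgebra k G, e * e = e ∧ e ≠ 0 ∧ b * e = e ∧
    Module.finrank k (LinearMap.range (cornerMat e).mulVecLin) = n}
  have hS : S.Nonempty := ⟨_, b, hbb, hb0, hbb, rfl⟩
  obtain ⟨e, hee, he0, hbe, hn⟩ := Nat.sInf_mem hS
  refine ⟨e, hee, he0, hbe, fun f hff hef => ?_⟩
  by_contra hcon
  push Not at hcon
  have hf1 : e * f = f := by rw [← hef, ← mul_assoc, ← mul_assoc, hee]
  have hf2 : f * e = f := by rw [← hef, mul_assoc, hee]
  have hle : LinearMap.range (cornerMat f).mulVecLin ≤ LinearMap.range (cornerMat e).mulVecLin := by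
    rintro _ ⟨v, rfl⟩
    rw [Matrix.mulVecLin_apply, cornerMat_mulVec]
    exact mem_range_cornerMat (by
      calc e * (f * Block.ofFn v * f) * e = (e * f) * Block.ofFn v * (f * e) := by
            simp only [mul_assoc]
        _ = f * Block.ofFn v * f := by rw [hf1, hf2])
  have hlt : LinearMap.range (cornerMat f).mulVecLin < LinearMap.range (cornerMat e).mulVecLin := by
    refine lt_of_le_of_ne hle fun heq => hcon.2 ?_
    have hmem : (fun g => e.coeff g) ∈ LinearMap.range (cornerMat f).mulVecLin := by
      rw [heq]; exact mem_range_cornerMat (by rw [hee, hee])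
    obtain ⟨v, hv⟩ := hmem
    rw [Matrix.mulVecLin_apply, cornerMat_mulVec] at hv
    have he' : e = f * Block.ofFn v * f :=
      Block.groupAlgebra_ext fun g => (congrFun hv g).symm
    have : f * e = e := by rw [he', ← mul_assoc, ← mul_assoc, hff]
    exact hf2.symm.trans this
  have hmem : Module.finrank k (LinearMap.range (cornerMat f).mulVecLin) ∈ S :=
    ⟨f, hff, hcon.1, by rw [← hf1, ← mul_assoc, hbe], rfl⟩
  have := Nat.sInf_le hmem
  have := Submodule.finrank_lt_finrank_of_lt hlt
  omega

variable {p : ℕ} [Fact p.Prime] {M : Ideal AlgInt} [M.IsPrime] [CharP (Block.ResF M) p]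

/-- The corner of a block with cyclic defect group at a primitive idempotent has one generator. -/
theorem exists_one_gen (hM : IsPModular p M) {B : Set (IrrCharacter G)} (hB : IsPBlock M B)
    {P : Subgroup G} (hPD : IsDefectGroup p M B P) (hcyc : IsCyclic P) :
    ∃ e x : MonoidAlgebra (Block.ResF M) G, e * e = e ∧ e ≠ 0 ∧ Block.idemF M B * e = e ∧
      e * x = x ∧ x * e = x ∧
      ∀ r, ∃ q : Polynomial (Block.ResF M), e * r * e = Polynomial.aeval x q * e := by
  haveI : IsAlgClosed (Block.ResF M) := Brauer.isAlgClosed_resF hM.2.1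
  set b := Block.idemF M B with hb
  have hbc : ∀ z, z * b = b * z := fun z =>
    (Block.isCentralElt_commute (Block.idemF_isCentralElt B) z).symm
  have hbb : b * b = b := Block.idemF_mul_self hB
  have hb0 : b ≠ 0 := by
    intro h
    obtain ⟨χ, hχ⟩ := Block.pBlock_nonempty hB
    have := Block.lam_idemF_of_mem hB hχ
    rw [← hb, h, Block.lam_zero] at this
    exact zero_ne_one this
  obtain ⟨e, hee, he0, hbe, hmin⟩ := exists_min_idem hbb hb0 hbc
  let W : Submodule (Block.ResF M) (MonoidAlgebra (Block.ResF M) G) :=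
    LinearMap.range (LinearMap.mulLeft (Block.ResF M) e)
  have hW : ∀ w : W, e * (w : MonoidAlgebra (Block.ResF M) G) = w := by
    rintro ⟨_, v, rfl⟩
    show e * (e * v) = e * v
    rw [← mul_assoc, hee]
  let L : MonoidAlgebra (Block.ResF M) G →ₗ[Block.ResF M] Module.End (Block.ResF M) W :=
    { toFun := fun r =>
        { toFun := fun w => ⟨e * r * e * w, r * e * w, by simp [mul_assoc]⟩
          map_add' := fun v w => Subtype.ext (by simp [mul_add])
          map_smul' := fun t w => Subtype.ext (by simp) }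
      map_add' := fun r s => LinearMap.ext fun w => Subtype.ext (by simp [add_mul, mul_add])
      map_smul' := fun t r => LinearMap.ext fun w => Subtype.ext (by simp) }
  have hLap : ∀ r w, (L r w : MonoidAlgebra (Block.ResF M) G) = e * r * e * w := fun _ _ => rfl
  have hL1 : L 1 = 1 := LinearMap.ext fun w => Subtype.ext (by
    rw [hLap, mul_one, hee]; exact hW w)
  have hLmul : ∀ r s, L r * L s = L (r * e * s) := fun r s => LinearMap.ext fun w => Subtype.ext (by
    rw [Module.End.mul_apply, hLap, hLap, hLap]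
    calc e * r * e * (e * s * e * (w : MonoidAlgebra (Block.ResF M) G))
        = e * r * (e * e) * s * e * w := by simp only [mul_assoc]
      _ = _ := by rw [hee]; simp only [mul_assoc])
  let A : Subalgebra (Block.ResF M) (Module.End (Block.ResF M) W) :=
    { carrier := Set.range L
      one_mem' := ⟨1, hL1⟩
      mul_mem' := by rintro _ _ ⟨r, rfl⟩ ⟨s, rfl⟩; exact ⟨_, (hLmul r s).symm⟩
      zero_mem' := ⟨0, map_zero L⟩
      add_mem' := by rintro _ _ ⟨r, rfl⟩ ⟨s, rfl⟩; exact ⟨r + s, map_add L r s⟩
      algebraMap_mem' := fun t => ⟨t • 1, by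
        rw [map_smul, hL1, Algebra.algebraMap_eq_smul_one]⟩ }
  let e' : W := ⟨e, e, hee⟩
  have hLe : ∀ r, (L r e' : MonoidAlgebra (Block.ResF M) G) = e * r * e := fun r => by
    rw [hLap]
    show e * r * e * e = e * r * e
    rw [mul_assoc (e * r), hee]
  letI : Ring A := Algebra.semiringToRing (Block.ResF M)
  haveI : Module.Finite (Block.ResF M) (MonoidAlgebra (Block.ResF M) G) :=
    Module.Finite.of_surjective
      (coeffLinearEquiv (Block.ResF M)).symm.toLinearMap (LinearEquiv.surjective _)
  haveI : FiniteDimensional (Block.ResF M) A := by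
    let L₁ : MonoidAlgebra (Block.ResF M) G →ₗ[Block.ResF M] A :=
      LinearMap.codRestrict (Subalgebra.toSubmodule A) L fun r => ⟨r, rfl⟩
    exact Module.Finite.of_surjective L₁ fun a => ⟨a.2.choose, Subtype.ext a.2.choose_spec⟩
  haveI : Nontrivial A := by
    refine ⟨⟨0, 1, fun h => he0 ?_⟩⟩
    have h1 := congrArg (fun a : A => ((a : Module.End (Block.ResF M) W) e' :
      MonoidAlgebra (Block.ResF M) G)) h
    simp only [ZeroMemClass.coe_zero, LinearMap.zero_apply, OneMemClass.coe_one,
      Module.End.one_apply] at h1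
    exact h1.symm
  have hA : ∀ a : A, a * a = a → a = 0 ∨ a = 1 := by
    rintro ⟨_, r, rfl⟩ ha
    have h1 : L r * L r = L r := congrArg Subtype.val ha
    have h2 : e * r * e * (e * r * e) = e * r * e := by
      have := congrArg (fun f : Module.End (Block.ResF M) W =>
        (f e' : MonoidAlgebra (Block.ResF M) G)) h1
      simp only [hLmul, hLe] at this
      calc e * r * e * (e * r * e) = e * r * (e * e) * r * e := by simp only [mul_assoc]
        _ = e * (r * e * r) * e := by rw [hee]; simp only [mul_assoc]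
        _ = _ := this
    rcases hmin _ h2 (by simp only [← mul_assoc, hee]; rw [mul_assoc, hee]) with h | h
    · refine Or.inl (Subtype.ext (LinearMap.ext fun w => Subtype.ext ?_))
      show (L r w : MonoidAlgebra (Block.ResF M) G) = 0
      rw [hLap, h, zero_mul]
    · refine Or.inr (Subtype.ext (LinearMap.ext fun w => Subtype.ext ?_))
      show (L r w : MonoidAlgebra (Block.ResF M) G) = w
      rw [hLap, h]
      exact hW w
  rcases exists_gen_or_tangents (k := Block.ResF M) (A := A) hA with ⟨x, hx⟩ | ⟨s, α, β, x, y, hα, hβ, hx,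
    hy, hαx, hαy, hβx, hβy⟩
  · obtain ⟨_, r₀, rfl⟩ := x
    refine ⟨e, e * r₀ * e, hee, he0, hbe, by rw [← mul_assoc, ← mul_assoc, hee],
      by rw [mul_assoc, hee], fun r => ?_⟩
    have hr : (⟨L r, r, rfl⟩ : A) ∈ Algebra.adjoin (Block.ResF M)
        ({(⟨L r₀, r₀, rfl⟩ : A)} : Set A) := by rw [hx]; trivial
    rw [Algebra.adjoin_singleton_eq_range_aeval] at hr
    obtain ⟨q, hq⟩ := hr
    refine ⟨q, ?_⟩
    rw [← hLe r, ← show A.val (⟨L r, r, rfl⟩ : A) = L r from rfl, ← hq]
    show (A.val (Polynomial.aeval (⟨L r₀, r₀, rfl⟩ : A) q) e' : MonoidAlgebra (Block.ResF M) G) = _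
    rw [← Polynomial.aeval_algHom_apply]
    show ((Polynomial.aeval (L r₀) q) e' : MonoidAlgebra (Block.ResF M) G) = _
    clear hq
    induction q using Polynomial.induction_on' with
    | add q q' h h' =>
      rw [map_add, map_add, LinearMap.add_apply, Submodule.coe_add, h, h', add_mul]
    | monomial n t =>
      rw [Polynomial.aeval_monomial, Polynomial.aeval_monomial, ← Algebra.smul_def,
        ← Algebra.smul_def, LinearMap.smul_apply, Submodule.coe_smul, smul_mul_assoc]
      congr 1
      induction n with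
      | zero => rw [pow_zero, pow_zero, Module.End.one_apply, one_mul]
      | succ n IH =>
        rw [pow_succ', pow_succ', Module.End.mul_apply, hLap, IH]
        simp only [mul_assoc]
  · exfalso
    let m := Nat.card G + 1
    haveI : NeZero m := ⟨Nat.succ_ne_zero _⟩
    obtain ⟨ρA, c, hc, hloc⟩ := exists_large_module hα hβ hx hy hαx hαy hβx hβy m
    let L' : MonoidAlgebra (Block.ResF M) G →ₗ[Block.ResF M] A :=
      LinearMap.codRestrict (Subalgebra.toSubmodule A) L fun r => ⟨r, rfl⟩
    have hL'm : ∀ r s, L' (r * e * s) = L' r * L' s := fun r s => Subtype.ext (hLmul r s).symm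
    obtain ⟨a, haP, htr⟩ := idemF_eq_trace hM hB hPD
    have hle := finrank_le_card (ρ := ρA.toLinearMap ∘ₗ L') (c := c) (e := e) hcyc
      (Block.isDefectGroup_isPGroup hPD) haP htr hbc
      (fun r s => by
        show ρA (L' (r * e * s)) = ρA (L' r) * ρA (L' s)
        rw [hL'm, map_mul])
      (by
        show ρA (L' 1) = 1
        rw [show L' 1 = (1 : A) from Subtype.ext hL1, map_one])
      (fun r => congrArg ρA (Subtype.ext (LinearMap.ext fun w => Subtype.ext (by
        show e * (b * r) * e * _ = e * r * e * _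
        rw [← mul_assoc e b r, hbc e, hbe]))))
      (fun r => congrArg ρA (Subtype.ext (LinearMap.ext fun w => Subtype.ext (by
        show e * (e * r) * e * _ = e * r * e * _
        rw [← mul_assoc e e r, hee]))))
      (fun r => congrArg ρA (Subtype.ext (LinearMap.ext fun w => Subtype.ext (by
        show e * (r * e) * e * _ = e * r * e * _
        rw [mul_assoc e (r * e) e, mul_assoc r e e, hee, ← mul_assoc e r e]))))
      hc (fun f hf => hloc f fun a' => by
        obtain ⟨_, r, rfl⟩ := a'
        exact hf r)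
    rw [Module.finrank_prod, Module.finrank_fin_fun] at hle
    omega

/-- An idempotent of the group algebra with commutative corner has rank at most one in every
irreducible representation. -/
theorem charLin_le_one {χ : G → ℂ} (hχ : IsIrrCharacter G χ) {ε : MonoidAlgebra ℂ G}
    (hε : ε * ε = ε) (hcomm : ∀ r s, Commute (ε * r * ε) (ε * s * ε)) :
    ∃ n : ℕ, n ≤ 1 ∧ Block.charLin χ ε = n := by
  obtain ⟨N, ρ, hρ, rfl⟩ := hχ
  set E := ρ.asAlgebraHom ε with hE
  have hid : IsIdempotentElem E := (show IsIdempotentElem ε from hε).map _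
  refine ⟨Module.finrank ℂ (LinearMap.range E), ?_, by
    rw [Brauer.ProjVec.charLin_eq_trace, (LinearMap.IsIdempotentElem.isProj_range _ hid).trace]⟩
  by_cases hne : LinearMap.range E = ⊥
  · rw [hne, finrank_bot]; exact Nat.zero_le _
  set T : MonoidAlgebra ℂ G → Module.End ℂ (Fin N → ℂ) := fun r => ρ.asAlgebraHom (ε * r * ε) with hT
  have hTT : ∀ r s v, T r (T s v) = T s (T r v) := fun r s v => by
    simp only [hT]
    rw [← Module.End.mul_apply, ← map_mul, (hcomm r s).eq, map_mul, Module.End.mul_apply]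
  have hTW : ∀ r v, T r v ∈ LinearMap.range E := fun r v => by
    simp only [hT]
    rw [mul_assoc, map_mul, Module.End.mul_apply]
    exact LinearMap.mem_range_self _ _
  have hEW : ∀ w ∈ LinearMap.range E, E w = w := by
    rintro _ ⟨v, rfl⟩
    exact LinearMap.congr_fun hid.eq v
  have hgenall : ∀ v ∈ LinearMap.range E, v ≠ 0 →
      ∀ w ∈ LinearMap.range E, ∃ r, w = T r v := by
    intro v hv hv0 w hw
    let U : Submodule ℂ (Fin N → ℂ) :=
      LinearMap.range ((LinearMap.applyₗ v).comp ρ.asAlgebraHom.toLinearMap)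
    have hUg : ∀ (g : G) ⦃z⦄, z ∈ U → ρ g z ∈ U := by
      rintro g _ ⟨r, rfl⟩
      refine ⟨single g 1 * r, ?_⟩
      show ρ.asAlgebraHom (single g 1 * r) v = ρ g (ρ.asAlgebraHom r v)
      rw [map_mul, Representation.asAlgebraHom_single, one_smul]
      rfl
    haveI := hρ
    rcases IsSimpleOrder.eq_bot_or_eq_top (⟨U, hUg⟩ : Subrepresentation ρ) with hbot | htop
    · exfalso
      refine hv0 ?_
      have hvU : v ∈ U := ⟨1, by simp⟩
      have hU : U = ⊥ := congrArg Subrepresentation.toSubmodule hbot
      rwa [hU, Submodule.mem_bot] at hvU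
    · have hU : U = ⊤ := congrArg Subrepresentation.toSubmodule htop
      obtain ⟨r, hr⟩ : w ∈ U := hU ▸ Submodule.mem_top
      refine ⟨r, ?_⟩
      simp only [hT]
      rw [map_mul, map_mul, Module.End.mul_apply, Module.End.mul_apply, ← hE, hEW v hv]
      have hr' : ρ.asAlgebraHom r v = w := hr
      rw [hr', hEW w hw]
  haveI : Nontrivial (LinearMap.range E) := Submodule.nontrivial_iff_ne_bot.2 hne
  have hscal : ∀ r, ∃ t : ℂ, ∀ w ∈ LinearMap.range E, T r w = t • w := by
    intro r
    obtain ⟨t, ht⟩ := Module.End.exists_eigenvalue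
      ((T r).restrict (p := LinearMap.range E) fun w _ => hTW r w)
    obtain ⟨⟨v, hv⟩, hve⟩ := ht.exists_hasEigenvector
    refine ⟨t, fun w hw => ?_⟩
    have hv0 : v ≠ 0 := fun h => hve.2 (Subtype.ext h)
    obtain ⟨s, rfl⟩ := hgenall v hv hv0 w hw
    rw [hTT, show T r v = t • v from congrArg Subtype.val hve.apply_eq_smul, map_smul]
  obtain ⟨⟨v, hv⟩, hv0⟩ := exists_ne (0 : LinearMap.range E)
  refine le_trans (Submodule.finrank_mono (?_ : LinearMap.range E ≤ Submodule.span ℂ {v})) ?_
  · intro w hw
    obtain ⟨r, rfl⟩ := hgenall v hv (fun h => hv0 (Subtype.ext h)) w hw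
    obtain ⟨t, ht⟩ := hscal r
    rw [ht v hv]
    exact Submodule.smul_mem _ _ (Submodule.mem_span_singleton_self v)
  · rw [finrank_span_singleton fun h => hv0 (Subtype.ext h)]

/-- The lifted idempotent with commutative corner. -/
theorem exists_lifted (hM : IsPModular p M) {B : Set (IrrCharacter G)} (hB : IsPBlock M B)
    {P : Subgroup G} (hPD : IsDefectGroup p M B P) (hcyc : IsCyclic P) :
    ∃ ε : MonoidAlgebra (Block.localRing M) G, ε * ε = ε ∧ Block.toF M ε ≠ 0 ∧
      Block.idemS M B * ε = ε ∧
      ∀ r s, Commute (Block.toC M ε * r * Block.toC M ε) (Block.toC M ε * s * Block.toC M ε) := by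
  obtain ⟨e, x, hee, he0, hbe, hex, hxe, hgen⟩ := exists_one_gen hM hB hPD hcyc
  have hsur : ∀ z : MonoidAlgebra (Block.ResF M) G, ∃ w, Block.toF M w = z := fun z => by
    choose w hw using fun g => Block.red_surjective (M := M) (z.coeff g)
    exact ⟨Block.ofFn w, Block.groupAlgebra_ext fun g => by
      rw [Block.coeff_mapR, Block.coeff_ofFn, hw]⟩
  obtain ⟨w, hw⟩ := hsur e
  obtain ⟨Q, Q', h0, h1, hQ, -⟩ := Nil.exists_lift_poly w
  set S := Block.idemS M B
  have hSc : ∀ z, z * S = S * z := fun z =>
    (Block.isCentralElt_commute (Block.idemS_isCentralElt B) z).symm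
  set ε := S * Polynomial.aeval w Q with hεd
  have hεε : ε * ε = ε := by
    calc ε * ε = S * (Polynomial.aeval w Q * S) * Polynomial.aeval w Q := by
          simp only [hεd, mul_assoc]
      _ = S * S * (Polynomial.aeval w Q * Polynomial.aeval w Q) := by
          rw [hSc]; simp only [mul_assoc]
      _ = ε := by rw [Block.idemS_mul_self hB, hQ]
  have hεF : Block.toF M ε = e := by
    rw [hεd, map_mul]
    show Block.idemF M B * _ = e
    rw [Nil.toF_aeval, hw, Nil.aeval_idem hee]
    have ev : ∀ t : Block.localRing M,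
        (Q.map (Block.red M)).eval (Block.red M t) = Block.red M (Q.eval t) := fun t => by
      rw [Polynomial.eval_map, Polynomial.eval₂_hom]
    rw [← map_zero (Block.red M), ev 0, ← map_one (Block.red M), ev 1, h0, h1, zero_smul, zero_add,
      sub_zero, one_smul, hbe]
  obtain ⟨y, hy⟩ := hsur x
  set xh := ε * y * ε with hxhd
  have hxF : Block.toF M xh = x := by rw [hxhd, map_mul, map_mul, hεF, hy, hex, hxe]
  refine ⟨ε, hεε, by rw [hεF]; exact he0,
    by rw [hεd, ← mul_assoc, Block.idemS_mul_self hB], ?_⟩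
  set εC := Block.toC M ε with hεC
  set xC := Block.toC M xh with hxC
  have hεεC : εC * εC = εC := by rw [hεC, ← map_mul, hεε]
  have hεx : Commute εC xC := by
    show εC * xC = xC * εC
    have h1 : ε * xh = xh := by
      rw [hxhd, mul_assoc ε y ε, ← mul_assoc ε ε (y * ε), hεε]
    have h2 : xh * ε = xh := by rw [hxhd, mul_assoc (ε * y) ε ε, hεε]
    rw [hεC, hxC, ← map_mul, ← map_mul, h1, h2]
  -- the powers
  obtain ⟨σ⟩ : Nonempty (G ≃ Fin (Nat.card G)) := ⟨Finite.equivFin G⟩
  let Y : Matrix G G (Block.localRing M) :=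
    Matrix.of fun g h => (ε * xh ^ ((σ h : Fin _) : ℕ)).coeff g
  have hcol : ∀ {R : Type} [CommRing R] (f : Block.localRing M →+* R) (v : G → R),
      (Y.map f).mulVec v = fun g =>
        (∑ h : G, v h • (Block.mapR f ε * Block.mapR f xh ^ ((σ h : Fin _) : ℕ))).coeff g := by
    intro R _ f v
    funext g
    rw [coeff_sum, Finsupp.finsetSum_apply]
    simp only [Matrix.mulVec, dotProduct, Matrix.map_apply, Y, Matrix.of_apply]
    refine Finset.sum_congr rfl fun h _ => ?_
    rw [coeff_smul, Finsupp.smul_apply, smul_eq_mul, ← Block.coeff_mapR, map_mul, map_pow, mul_comm]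
  have hge : LinearMap.range (cornerMat e).mulVecLin ≤
      LinearMap.range (Y.map (Block.red M)).mulVecLin := by
    rintro _ ⟨v, rfl⟩
    obtain ⟨q, hq⟩ := hgen (Block.ofFn v)
    haveI : Module.Finite (Block.ResF M) (MonoidAlgebra (Block.ResF M) G) :=
      Module.Finite.of_surjective
        (coeffLinearEquiv (Block.ResF M)).symm.toLinearMap (LinearEquiv.surjective _)
    have hint : IsIntegral (Block.ResF M) x := IsIntegral.of_finite _ x
    have hdeg : (minpoly (Block.ResF M) x).natDegree ≤ Nat.card G := by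
      refine (minpoly.natDegree_le x).trans (le_of_eq ?_)
      rw [LinearEquiv.finrank_eq (coeffLinearEquiv (Block.ResF M)), Module.finrank_finsupp_self,
        Nat.card_eq_fintype_card]
    set q' := q %ₘ minpoly (Block.ResF M) x with hq'
    have hlt : q'.natDegree < Nat.card G :=
      lt_of_lt_of_le (Polynomial.natDegree_modByMonic_lt q (minpoly.monic hint)
        (minpoly.ne_one _ _)) hdeg
    have hev : Polynomial.aeval x q = Polynomial.aeval x q' :=
      (Polynomial.aeval_modByMonic_eq_self_of_root (minpoly.aeval _ x)).symm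
    have hcm : ∀ i : ℕ, e * x ^ i = x ^ i * e := fun i =>
      (Commute.pow_right (show e * x = x * e by rw [hex, hxe]) i)
    refine ⟨fun h => q'.coeff ((σ h : Fin _) : ℕ), ?_⟩
    rw [Matrix.mulVecLin_apply, hcol, Matrix.mulVecLin_apply, cornerMat_mulVec, hq, hev,
      Polynomial.aeval_eq_sum_range' hlt, Finset.sum_mul]
    funext g
    congr 2
    rw [← Fin.sum_univ_eq_sum_range (fun i => q'.coeff i • x ^ i * e) (Nat.card G),
      ← Equiv.sum_comp σ]
    refine Finset.sum_congr rfl fun h _ => ?_
    rw [smul_mul_assoc, ← hcm]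
    congr 1
    show Block.toF M ε * Block.toF M xh ^ _ = _
    rw [hεF, hxF]
  have hEF : (cornerMat ε).map (Block.red M) = cornerMat e := by
    rw [cornerMat_mapR]; exact congrArg cornerMat hεF
  have hEC : (cornerMat ε).map (Block.localRing M).subtype = cornerMat εC := cornerMat_mapR _ _
  have hle : LinearMap.range (Y.map (Block.localRing M).subtype).mulVecLin ≤
      LinearMap.range (cornerMat εC).mulVecLin := by
    rintro _ ⟨v, rfl⟩
    rw [Matrix.mulVecLin_apply, hcol]
    refine mem_range_cornerMat ?_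
    rw [Finset.mul_sum, Finset.sum_mul]
    refine Finset.sum_congr rfl fun h _ => ?_
    show εC * (v h • (εC * xC ^ _)) * εC = v h • (εC * xC ^ _)
    rw [mul_smul_comm, smul_mul_assoc, ← mul_assoc, hεεC, mul_assoc, ← (hεx.pow_right _).eq,
      ← mul_assoc, hεεC]
  have hrank : Module.finrank ℂ (LinearMap.range (cornerMat εC).mulVecLin) ≤
      Module.finrank ℂ (LinearMap.range (Y.map (Block.localRing M).subtype).mulVecLin) := by
    refine le_trans ?_ (BlkChar.BlockAlg.finrank_range_map_le (Block.red M) Block.red_surjective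
      (Block.localRing M).subtype Subtype.val_injective Y)
    refine le_trans (le_of_eq ?_) (Submodule.finrank_mono hge)
    have h2 := BlkChar.BlockAlg.finrank_range_map_eq_trace (Block.red M) Block.red_surjective
      (Block.localRing M).subtype Subtype.val_injective (cornerMat ε) (cornerMat_mul_self hεε)
    have h3 := BlkChar.BlockAlg.finrank_range_map_eq_trace (RingHom.id ℂ) Function.surjective_id
      (RingHom.id ℂ) Function.injective_id (cornerMat εC) (cornerMat_mul_self hεεC)
    rw [hEF, hEC] at h2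
    rw [show (cornerMat εC).map (RingHom.id ℂ) = cornerMat εC from Matrix.ext fun _ _ => rfl] at h3
    exact_mod_cast h3.trans h2.symm
  have heq := Submodule.eq_of_le_of_finrank_le hle hrank
  have hmem : ∀ r, ∃ v : G → ℂ, εC * r * εC =
      ∑ h : G, v h • (εC * xC ^ ((σ h : Fin _) : ℕ)) := by
    intro r
    have hm : (fun g => (εC * r * εC).coeff g) ∈
        LinearMap.range (Y.map (Block.localRing M).subtype).mulVecLin := by
      rw [heq]
      refine mem_range_cornerMat ?_
      simp only [← mul_assoc, hεεC]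
      rw [mul_assoc, hεεC]
    obtain ⟨v, hv⟩ := hm
    rw [Matrix.mulVecLin_apply, hcol] at hv
    exact ⟨v, Block.groupAlgebra_ext fun g => (congrFun hv g).symm⟩
  intro r s
  obtain ⟨v, hv⟩ := hmem r
  obtain ⟨v', hv'⟩ := hmem s
  rw [hv, hv']
  refine Commute.sum_left _ _ _ fun i _ => Commute.sum_right _ _ _ fun j _ => ?_
  refine (Commute.smul_left ?_ _).smul_right _
  exact ((Commute.refl εC).mul_right (hεx.pow_right _)).mul_left
    ((hεx.symm.pow_left _).mul_right (Commute.pow_pow (Commute.refl xC) _ _))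

/-- A block with cyclic defect group and one Brauer character has at least as many characters as
its defect group has elements. -/
theorem card_ge (hM : IsPModular p M) {B : Set (IrrCharacter G)} (hB : IsPBlock M B)
    {P : Subgroup G} (hPD : IsDefectGroup p M B P) (hcyc : IsCyclic P)
    (hl : blockRank p B = 1) : Nat.card P ≤ Nat.card B := by
  obtain ⟨ε, hεε, hε0, hSε, hcomm⟩ := exists_lifted hM hB hPD hcyc
  have hεεC : Block.toC M ε * Block.toC M ε = Block.toC M ε := by rw [← map_mul, hεε]
  choose n hn1 hn using fun χ : IrrCharacter G => charLin_le_one χ.2 hεεC hcomm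
  -- the values live on the regular elements
  have hreg : ∀ χ : IrrCharacter G, Block.charLin (χ : G → ℂ) (Block.toC M ε) =
      ∑ y ∈ Finset.univ.filter (fun y : G => ¬ p ∣ orderOf y),
        (ε.coeff y : ℂ) * (χ : G → ℂ) y := by
    intro χ
    rw [Block.charLin_eq_sum]
    simp only [Block.coeff_mapR]
    rw [← Finset.sum_filter_add_sum_filter_not Finset.univ (fun y : G => p ∣ orderOf y)]
    have h := Nil.sum_singular_eq_zero hM (H := (⊤ : Subgroup G)) hεε (suppIn_top _)
      (g := (χ : G → ℂ)) (fun h _ y _ => Char.irr_isClassFunction χ.2 y h)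
    simp only [Subgroup.mem_top, true_and] at h
    show (∑ y ∈ Finset.univ.filter (fun y : G => p ∣ orderOf y),
      (ε.coeff y : ℂ) * (χ : G → ℂ) y) + _ = _
    rw [h, zero_add]
    rfl
  -- some member is seen
  have hout : ∀ χ : IrrCharacter G, χ ∉ B → Block.charLin (χ : G → ℂ) (Block.toC M ε) = 0 := by
    intro χ hχ
    rw [← hSε, map_mul, Block.charLin_central_mul χ.2 (by
      rw [Block.toC_idemS hB]
      exact fun g h => by
        have := Block.idemS_isCentralElt (M := M) B g h
        have h2 := congrArg (fun z => MonoidAlgebra.coeff z (h * g * h⁻¹))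
          (Block.toC_idemS (M := M) hB)
        have h3 := congrArg (fun z => MonoidAlgebra.coeff z g) (Block.toC_idemS (M := M) hB)
        simp only [Block.coeff_mapR] at h2 h3
        rw [← h2, ← h3, this]), Block.omega_idemS hB, if_neg hχ, zero_mul]
  obtain ⟨χ₀, hχ₀, hne⟩ : ∃ χ ∈ B, n χ ≠ 0 := by
    by_contra hcon
    push Not at hcon
    have hz : ∀ χ : IrrCharacter G, Block.charLin (χ : G → ℂ) (Block.toC M ε) = 0 := fun χ => by
      by_cases hχ : χ ∈ B
      · rw [hn, hcon χ hχ, Nat.cast_zero]
      · exact hout χ hχ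
    have h1 : ((Block.toC M ε).coeff 1) * (Nat.card G : ℂ) = 0 := by
      have horth : ∀ g : G, ∑ χ : IrrCharacter G, (χ : G → ℂ) g * conj ((χ : G → ℂ) 1) =
          if g = 1 then (Nat.card G : ℂ) else 0 := fun g => by
        rw [Char.sum_irr_mul_conj]
        by_cases hg : g = 1
        · rw [if_pos hg, if_pos (hg ▸ IsConj.refl _), hg,
            show Subgroup.centralizer ({1} : Set G) = ⊤ from eq_top_iff.mpr fun y _ => by
              simp [Subgroup.mem_centralizer_singleton_iff], Subgroup.card_top]
        · rw [if_neg hg, if_neg fun h => hg (isConj_one_left.1 h)]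
      calc (Block.toC M ε).coeff 1 * (Nat.card G : ℂ)
          = ∑ g : G, (Block.toC M ε).coeff g *
              ∑ χ : IrrCharacter G, (χ : G → ℂ) g * conj ((χ : G → ℂ) 1) := by
            simp [horth]
        _ = ∑ χ : IrrCharacter G, Block.charLin (χ : G → ℂ) (Block.toC M ε) *
              conj ((χ : G → ℂ) 1) := by
            simp only [Block.charLin_eq_sum, Finset.sum_mul, Finset.mul_sum]
            rw [Finset.sum_comm]
            simp only [mul_assoc]
        _ = 0 := by simp [hz]
    have h2 := BlkChar.BlockAlg.finrank_range_map_eq_trace (Block.red M) Block.red_surjective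
      (Block.localRing M).subtype Subtype.val_injective (BlkChar.BlockAlg.mulMat ε)
      (BlkChar.BlockAlg.mulMat_mul_self hεε)
    have htr : ((BlkChar.BlockAlg.mulMat ε).map (Block.localRing M).subtype).trace =
        ((Block.toC M ε).coeff 1) * (Nat.card G : ℂ) := by
      simp [Matrix.trace, BlkChar.BlockAlg.mulMat, Block.coeff_mapR, mul_comm]
    rw [htr, h1, Nat.cast_eq_zero, Submodule.finrank_eq_zero, BlkChar.BlockAlg.mulMat_mapR] at h2
    have hFne : Block.mapR (Block.red M) ε ≠ 0 := hε0
    refine hFne (Block.groupAlgebra_ext fun g => ?_)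
    have hmem : (fun g => (Block.mapR (Block.red M) ε).coeff g) ∈
        LinearMap.range (BlkChar.BlockAlg.mulMat (Block.mapR (Block.red M) ε)).mulVecLin :=
      ⟨fun g => (1 : MonoidAlgebra (Block.ResF M) G).coeff g, by
        rw [Matrix.mulVecLin_apply, BlkChar.BlockAlg.mulMat_mulVec, mul_one]⟩
    rw [h2, Submodule.mem_bot] at hmem
    exact congrFun hmem g
  have hdeg : ∀ χ ∈ B, (χ : G → ℂ) 1 = (χ₀ : G → ℂ) 1 := by
    intro χ hχ
    have h1 : Block.charLin (χ : G → ℂ) (Block.toC M ε) * (χ₀ : G → ℂ) 1 =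
        (χ : G → ℂ) 1 * Block.charLin (χ₀ : G → ℂ) (Block.toC M ε) := by
      rw [hreg, hreg, Finset.sum_mul, Finset.mul_sum]
      refine Finset.sum_congr rfl fun y hy => ?_
      rw [mul_assoc, reg_proportional hl hχ₀ hχ (Finset.mem_filter.1 hy).2]
      ring
    have e0 : n χ₀ = 1 := le_antisymm (hn1 χ₀) (Nat.one_le_iff_ne_zero.2 hne)
    rw [hn, hn, e0, Nat.cast_one, mul_one] at h1
    rcases Nat.le_one_iff_eq_zero_or_eq_one.1 (hn1 χ) with h | h
    · rw [h, Nat.cast_zero, zero_mul] at h1
      exact absurd h1.symm (Char.irr_one_ne_zero χ.2)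
    · rw [h, Nat.cast_one, one_mul] at h1
      exact h1.symm
  obtain ⟨χ₁, hχ₁, h₁0⟩ := BlockVal.exists_height_zero (p := p) (Block.pBlock_nonempty hB)
  have hd : ∀ η ∈ B, charDegree ((η : IrrCharacter G) : G → ℂ) = charDegree (χ₁ : G → ℂ) :=
    fun η hη => by rw [charDegree, charDegree, hdeg η hη, hdeg χ₁ hχ₁]
  have hf := BlockVal.factorization_sum_sq hM hB hχ₁ h₁0
  rw [Finset.sum_congr rfl (g := fun _ => charDegree (χ₁ : G → ℂ) ^ 2) fun η hη => by
    rw [hd η (Finset.mem_filter.1 hη).2], Finset.sum_const, smul_eq_mul] at hf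
  have hk : (Finset.univ.filter (· ∈ B)).card = Nat.card B := by
    rw [Nat.card_eq_fintype_card, Fintype.card_subtype]
  have hk0 : Nat.card B ≠ 0 := by
    rw [← hk]
    exact Finset.card_ne_zero.2 ⟨χ₁, Finset.mem_filter.2 ⟨Finset.mem_univ _, hχ₁⟩⟩
  have hd0 : charDegree (χ₁ : G → ℂ) ≠ 0 := (BlockVal.irr_one_eq_charDegree χ₁).2
  rw [hk, Nat.factorization_mul hk0 (pow_ne_zero _ hd0), Finsupp.add_apply,
    Nat.factorization_pow, Finsupp.smul_apply, smul_eq_mul] at hf
  rw [BlockVal.card_defectGroup hM hB hPD, BlockVal.blockDefect_eq hχ₁ h₁0]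
  refine Nat.le_of_dvd (Nat.pos_of_ne_zero hk0) ?_
  rw [(Fact.out : p.Prime).pow_dvd_iff_le_factorization hk0]
  omega

end Cfsg.Agent.BrauerPairs.CyclicDefect
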